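import Cfsg.Agent.FGS75.Weil.Slice

/-!
A Siegel weight of rank at least two forces the degree `(q^n - 1)(q^n - q) / (2 (q + 1))`.
-/

namespace Cfsg.Agent.FGS75.Weil

open Matrix Cfsg.Agent.Weights
open Cfsg.Agent.MinDeg (siegel siegel_add siegel_transpose)

section Quadric

variable {F : Type*} [Field F] {V : Type*} [AddCommGroup V] [Module F V]
variable (B : V →ₗ[F] V →ₗ[F] F)

/-- vectors of `U` orthogonal to `v` -/
def perp (U : Submodule F V) (v : V) : Submodule F V := U ⊓ LinearMap.ker (B v)

variable {B}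

/-- splitting off an anisotropic vector -/
noncomputable def perpEquiv (U : Submodule F V) (v : V) (hv : v ∈ U) (hB : B v v ≠ 0) :
    U ≃ (perp B U v) × F where
  toFun z := (⟨z.1 - (B v z.1 / B v v) • v, U.sub_mem z.2 (U.smul_mem _ hv), by
    show B v (z.1 - (B v z.1 / B v v) • v) = 0
    rw [map_sub, map_smul, smul_eq_mul, div_mul_cancel₀ _ hB, sub_self]⟩,
    B v z.1 / B v v)
  invFun p := ⟨p.1.1 + p.2 • v, U.add_mem p.1.2.1 (U.smul_mem _ hv)⟩
  left_inv z := Subtype.ext (sub_add_cancel _ _)
  right_inv p := by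
    have h0 : B v p.1.1 = 0 := LinearMap.mem_ker.1 p.1.2.2
    have e : B v (p.1.1 + p.2 • v) / B v v = p.2 := by
      rw [map_add, map_smul, h0, zero_add, smul_eq_mul, mul_div_assoc, div_self hB, mul_one]
    refine Prod.ext (Subtype.ext ?_) e
    change p.1.1 + p.2 • v - (B v (p.1.1 + p.2 • v) / B v v) • v = p.1.1
    rw [e, add_sub_cancel_right]

theorem card_perp [Finite F] [Finite V] (U : Submodule F V) (v : V) (hv : v ∈ U)
    (hB : B v v ≠ 0) : Nat.card U = Nat.card (perp B U v) * Nat.card F := by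
  rw [Nat.card_congr (perpEquiv U v hv hB), Nat.card_prod]

theorem quad_expand (hsymm : ∀ u w, B u w = B w u) (U : Submodule F V) (v : V) (z : perp B U v)
    (t : F) : B (z.1 + t • v) (z.1 + t • v) = B z.1 z.1 + t * t * B v v := by
  have h0 : B v z.1 = 0 := LinearMap.mem_ker.1 z.2.2
  simp only [map_add, map_smul, LinearMap.add_apply, LinearMap.smul_apply, smul_eq_mul,
    hsymm z.1 v, h0]
  ring

variable [Finite F] [Finite V] (hsymm : ∀ u w, B u w = B w u)
include hsymm

theorem card_quad_le (U : Submodule F V) (v : V) (hv : v ∈ U) (hB : B v v ≠ 0) (c : F) :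
    Nat.card {z : U // B z.1 z.1 = c} ≤ 2 * Nat.card (perp B U v) := by
  classical
  have := Fintype.ofFinite F
  have := Fintype.ofFinite (perp B U v)
  let T : perp B U v → Finset F := fun z =>
    Finset.univ.filter fun t => B z.1 z.1 + t * t * B v v = c
  have hT : ∀ z, (T z).card ≤ 2 := by
    intro z
    rcases (T z).eq_empty_or_nonempty with he | ⟨t₁, ht₁⟩
    · simp [he]
    refine (Finset.card_le_card (t := {t₁, -t₁}) fun t ht => ?_).trans Finset.card_le_two
    have e := (Finset.mem_filter.1 ht).2.trans (Finset.mem_filter.1 ht₁).2.symm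
    rw [Finset.mem_insert, Finset.mem_singleton]
    exact mul_self_eq_mul_self_iff.1 (mul_right_cancel₀ hB (add_left_cancel e))
  let f : {z : U // B z.1 z.1 = c} → Σ z : perp B U v, T z := fun z =>
    ⟨(perpEquiv U v hv hB z.1).1, (perpEquiv U v hv hB z.1).2, by
      refine Finset.mem_filter.2 ⟨Finset.mem_univ _, ?_⟩
      rw [← quad_expand hsymm U v]
      have := congrArg Subtype.val ((perpEquiv U v hv hB).symm_apply_apply z.1)
      change ((perpEquiv U v hv hB z.1).1.1 + (perpEquiv U v hv hB z.1).2 • v) = z.1.1 at this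
      rw [this, z.2]⟩
  have hf : Function.Injective f := by
    intro a b h
    have h1 : (perpEquiv U v hv hB a.1).1 = (perpEquiv U v hv hB b.1).1 := congrArg Sigma.fst h
    have h2 : (perpEquiv U v hv hB a.1).2 = (perpEquiv U v hv hB b.1).2 :=
      congrArg (fun s : Σ z : perp B U v, T z => (s.2 : F)) h
    exact Subtype.ext ((perpEquiv U v hv hB).injective (Prod.ext h1 h2))
  refine (Nat.card_le_card_of_injective f hf).trans ?_
  rw [Nat.card_sigma, Nat.card_eq_fintype_card (α := perp B U v)]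
  refine (Finset.sum_le_sum fun z _ => (Nat.card_eq_finsetCard (T z)).le.trans (hT z)).trans ?_
  simp [mul_comm]

omit hsymm [Finite V] in
theorem plane_card (h2 : (2 : F) ≠ 0) (b0 b1 : F) (h0 : b0 ≠ 0) (h1 : b1 ≠ 0) :
    (∀ d, Nat.card {p : F × F // b0 * (p.1 * p.1) + b1 * (p.2 * p.2) = d} ≤ Nat.card F + 1) ∨
    ((∀ d, d ≠ 0 → Nat.card {p : F × F // b0 * (p.1 * p.1) + b1 * (p.2 * p.2) = d} + 1 ≤ Nat.card F) ∧
      Nat.card {p : F × F // b0 * (p.1 * p.1) + b1 * (p.2 * p.2) = 0} + 1 ≤ 2 * Nat.card F) := by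
  classical
  have := Fintype.ofFinite F
  by_cases hiso : ∃ σ : F, b0 + b1 * (σ * σ) = 0
  · right
    obtain ⟨σ, hσ⟩ := hiso
    have hσ0 : σ ≠ 0 := fun h => h0 (by simpa [h] using hσ)
    let uw : F × F → F × F := fun p => (p.1 + p.2 / σ, p.1 - p.2 / σ)
    have hinj : Function.Injective uw := fun p p' h => by
      simp only [uw, Prod.mk.injEq] at h
      obtain ⟨e1, e2⟩ := h
      have a1 : p.1 = p'.1 := mul_left_cancel₀ h2 (by linear_combination e1 + e2)
      refine Prod.ext a1 ?_
      have : p.2 / σ = p'.2 / σ := by linear_combination e1 - a1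
      exact (div_left_inj' hσ0).1 this
    have hval : ∀ p : F × F, b0 * (p.1 * p.1) + b1 * (p.2 * p.2) = b0 * ((uw p).1 * (uw p).2) := by
      intro p
      simp only [uw]
      field_simp
      linear_combination (p.2 * p.2) * hσ
    refine ⟨fun d hd => ?_, ?_⟩
    · let f : {p : F × F // b0 * (p.1 * p.1) + b1 * (p.2 * p.2) = d} → {u : F // u ≠ 0} := fun p =>
        ⟨(uw p.1).1, fun h => hd (by rw [← p.2, hval, h, zero_mul, mul_zero])⟩
      have hf : Function.Injective f := by
        intro p p' h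
        have h' : (uw p.1).1 = (uw p'.1).1 := congrArg Subtype.val h
        refine Subtype.ext (hinj (Prod.ext h' ?_))
        have e := ((hval p.1).symm.trans p.2).trans ((hval p'.1).symm.trans p'.2).symm
        rw [h'] at e
        exact mul_left_cancel₀ (f p').2 (mul_left_cancel₀ h0 e)
      have := Nat.card_le_card_of_injective f hf
      rw [Nat.card_eq_fintype_card (α := {u : F // u ≠ 0}), Fintype.card_subtype_compl,
        Fintype.card_subtype_eq] at this
      have hF := Fintype.card_pos (α := F)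
      rw [Nat.card_eq_fintype_card (α := F)]
      omega
    · let f : {p : F × F // b0 * (p.1 * p.1) + b1 * (p.2 * p.2) = 0} → F ⊕ {u : F // u ≠ 0} := fun p =>
        if h : (uw p.1).1 = 0 then Sum.inl (uw p.1).2 else Sum.inr ⟨(uw p.1).1, h⟩
      have hf : Function.Injective f := by
        intro p p' h
        refine Subtype.ext (hinj ?_)
        have hz : ∀ x : {p : F × F // b0 * (p.1 * p.1) + b1 * (p.2 * p.2) = 0},
            (uw x.1).1 ≠ 0 → (uw x.1).2 = 0 := fun x hx => by
          have := (hval x.1).symm.trans x.2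
          simpa [h0, hx] using this
        simp only [f] at h
        split_ifs at h with ha hb hb
        · exact Prod.ext (ha.trans hb.symm) (Sum.inl_injective h)
        · exact Prod.ext (congrArg Subtype.val (Sum.inr_injective h))
            ((hz p ha).trans (hz p' hb).symm)
      have := Nat.card_le_card_of_injective f hf
      rw [Nat.card_sum, Nat.card_eq_fintype_card (α := {u : F // u ≠ 0}),
        Fintype.card_subtype_compl, Fintype.card_subtype_eq] at this
      rw [Nat.card_eq_fintype_card (α := F)] at this ⊢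
      have hF := Fintype.card_pos (α := F)
      omega
  · left
    push Not at hiso
    intro d
    have hz : ∀ s t : F, b0 * (s * s) + b1 * (t * t) = 0 → s = 0 ∧ t = 0 := by
      intro s t h
      rcases eq_or_ne s 0 with rfl | hs
      · exact ⟨rfl, by simpa [h1] using h⟩
      · refine absurd ?_ (hiso (t / s))
        field_simp
        linear_combination h
    rcases isEmpty_or_nonempty {p : F × F // b0 * (p.1 * p.1) + b1 * (p.2 * p.2) = d} with he | ⟨⟨⟨s0, t0⟩, hP⟩⟩
    · simp
    rcases eq_or_ne d 0 with rfl | hd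
    · refine le_trans ?_ (Nat.le_add_left 1 _)
      refine Finite.card_le_one_iff_subsingleton.2 ⟨fun p p' => ?_⟩
      obtain ⟨a1, a2⟩ := hz _ _ p.2
      obtain ⟨a3, a4⟩ := hz _ _ p'.2
      exact Subtype.ext (Prod.ext (a1.trans a3.symm) (a2.trans a4.symm))
    simp only at hP
    -- the direction of a point seen from the base point
    let dir : F × F → Option F := fun D => if D.1 = 0 then none else some (D.2 / D.1)
    have hdir : ∀ D D' : F × F, D ≠ 0 → D' ≠ 0 → dir D = dir D' → ∃ r : F, r ≠ 0 ∧ D' = r • D := by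
      intro D D' hD hD' h
      simp only [dir] at h
      split_ifs at h with ha hb hb
      · have hD2 : D.2 ≠ 0 := fun e => hD (Prod.ext ha e)
        have hD'2 : D'.2 ≠ 0 := fun e => hD' (Prod.ext hb e)
        refine ⟨D'.2 / D.2, div_ne_zero hD'2 hD2, Prod.ext ?_ ?_⟩
        · simp [ha, hb]
        · simp [hD2]
      · have e := Option.some.inj h
        refine ⟨D'.1 / D.1, div_ne_zero hb ha, Prod.ext ?_ ?_⟩
        · simp [ha]
        · simp only [Prod.smul_snd, smul_eq_mul]
          field_simp at e ⊢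
          linear_combination -e
    let perpD : F × F := (b1 * t0, -(b0 * s0))
    have hperp : perpD ≠ 0 := by
      intro h
      simp only [perpD, Prod.mk_eq_zero, mul_eq_zero, h1, false_or, neg_eq_zero, h0] at h
      exact hd (by rw [← hP, h.1, h.2]; ring)
    let f : {p : F × F // b0 * (p.1 * p.1) + b1 * (p.2 * p.2) = d} → Option F := fun p =>
      if p.1 = (s0, t0) then dir perpD else dir (p.1 - (s0, t0))
    have hf : Function.Injective f := by
      intro p p' h
      have key : ∀ (D : F × F) (r : F) (x : {p : F × F // b0 * (p.1 * p.1) + b1 * (p.2 * p.2) = d}),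
          x.1 - (s0, t0) = r • D → r ≠ 0 →
            2 * (b0 * (s0 * D.1) + b1 * (t0 * D.2)) + r * (b0 * (D.1 * D.1) + b1 * (D.2 * D.2)) = 0 := by
        intro D r x hx hr
        have hx1 := congrArg Prod.fst hx
        have hx2 := congrArg Prod.snd hx
        simp only [Prod.fst_sub, Prod.snd_sub, Prod.smul_fst, Prod.smul_snd, smul_eq_mul] at hx1 hx2
        refine mul_left_cancel₀ hr ?_
        have hxd := x.2
        rw [show x.1.1 = s0 + r * D.1 by linear_combination hx1,
          show x.1.2 = t0 + r * D.2 by linear_combination hx2] at hxd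
        linear_combination hxd - hP
      have hbad : ∀ x : {p : F × F // b0 * (p.1 * p.1) + b1 * (p.2 * p.2) = d},
          x.1 ≠ (s0, t0) → dir perpD ≠ dir (x.1 - (s0, t0)) := by
        intro x hx e
        obtain ⟨r, hr, hr'⟩ := hdir _ _ hperp (sub_ne_zero.2 hx) e
        have := key perpD r x hr' hr
        have hq : r * (b0 * (perpD.1 * perpD.1) + b1 * (perpD.2 * perpD.2)) = 0 := by
          simp only [perpD] at this ⊢
          linear_combination this
        obtain ⟨e1, e2⟩ := hz _ _ ((mul_eq_zero.1 hq).resolve_left hr)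
        exact hperp (Prod.ext e1 e2)
      simp only [f] at h
      split_ifs at h with ha hb hb
      · exact Subtype.ext (ha.trans hb.symm)
      · exact absurd h (hbad p' hb)
      · exact absurd h.symm (hbad p ha)
      · obtain ⟨r, hr, hr'⟩ := hdir _ _ (sub_ne_zero.2 ha) (sub_ne_zero.2 hb) h
        have e1 := key (p.1 - (s0, t0)) 1 p (one_smul _ _).symm one_ne_zero
        have e2 := key _ r p' hr' hr
        have hne : b0 * ((p.1 - (s0, t0)).1 * (p.1 - (s0, t0)).1) +
            b1 * ((p.1 - (s0, t0)).2 * (p.1 - (s0, t0)).2) ≠ 0 := fun e0 => by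
          obtain ⟨z1, z2⟩ := hz _ _ e0
          exact sub_ne_zero.2 ha (Prod.ext z1 z2)
        have hr1 : r = 1 := mul_right_cancel₀ hne (by linear_combination e2 - e1)
        rw [hr1, one_smul] at hr'
        exact Subtype.ext (sub_left_injective hr').symm
    have := Nat.card_le_card_of_injective f hf
    rwa [Finite.card_option] at this

theorem card_quad_sharp (h2 : (2 : F) ≠ 0) (U : Submodule F V) (v w : V) (hv : v ∈ U)
    (hB : B v v ≠ 0) (hw : w ∈ perp B U v) (hB' : B w w ≠ 0) (c : F) (hc : c ≠ 0) :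
    Nat.card {z : U // B z.1 z.1 = c} ≤ (Nat.card F + 1) * Nat.card (perp B (perp B U v) w) := by
  classical
  have := Fintype.ofFinite F
  set U2 := perp B (perp B U v) w with hU2
  have := Fintype.ofFinite U2
  let A : U2 → Type _ := fun π =>
    {p : F × F // B v v * (p.1 * p.1) + B w w * (p.2 * p.2) = c - B π.1 π.1}
  let f : {z : U // B z.1 z.1 = c} → Σ π : U2, A π := fun z =>
    ⟨(perpEquiv (perp B U v) w hw hB' (perpEquiv U v hv hB z.1).1).1,
      ((perpEquiv U v hv hB z.1).2, (perpEquiv (perp B U v) w hw hB' (perpEquiv U v hv hB z.1).1).2),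
      by
        set a := perpEquiv U v hv hB z.1 with ha
        set b := perpEquiv (perp B U v) w hw hB' a.1 with hb
        have e1 := congrArg Subtype.val ((perpEquiv U v hv hB).symm_apply_apply z.1)
        change a.1.1 + a.2 • v = z.1.1 at e1
        have e2 := congrArg Subtype.val ((perpEquiv (perp B U v) w hw hB').symm_apply_apply a.1)
        change b.1.1 + b.2 • w = a.1.1 at e2
        have q1 := quad_expand hsymm U v a.1 a.2
        have q2 := quad_expand hsymm (perp B U v) w b.1 b.2
        rw [e1, z.2] at q1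
        rw [e2] at q2
        change B v v * (a.2 * a.2) + B w w * (b.2 * b.2) = c - B b.1.1 b.1.1
        linear_combination (-1 : F) * q1 - q2⟩
  have hf : Function.Injective f := by
    intro x y h
    have h1 := congrArg Sigma.fst h
    have h2' := congrArg (fun s : Σ π : U2, A π => (s.2.1 : F × F)) h
    simp only [f, Prod.mk.injEq] at h1 h2'
    exact Subtype.ext ((perpEquiv U v hv hB).injective (Prod.ext
      ((perpEquiv (perp B U v) w hw hB').injective (Prod.ext h1 h2'.2)) h2'.1))
  refine (Nat.card_le_card_of_injective f hf).trans ?_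
  rw [Nat.card_sigma, Nat.card_eq_fintype_card (α := U2)]
  rcases plane_card h2 (B v v) (B w w) hB hB' with hA | ⟨hA, hA0⟩
  · refine (Finset.sum_le_sum fun π _ => hA (c - B π.1 π.1)).trans ?_
    simp [mul_comm]
  · let Z := Finset.univ.filter fun π : U2 => B π.1 π.1 = c
    have hle : ∀ π : U2, Nat.card (A π) + 1 ≤ Nat.card F + if π ∈ Z then Nat.card F else 0 := by
      intro π
      by_cases hπ : B π.1 π.1 = c
      · rw [if_pos (show π ∈ Z from Finset.mem_filter.2 ⟨Finset.mem_univ _, hπ⟩)]
        simp only [A, hπ, sub_self]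
        omega
      · rw [if_neg (show π ∉ Z from fun h => hπ (Finset.mem_filter.1 h).2), add_zero]
        exact hA _ (sub_ne_zero.2 (Ne.symm hπ))
    have hsum := Finset.sum_le_sum (s := Finset.univ) fun π _ => hle π
    simp only [Finset.sum_add_distrib, Finset.sum_const, Finset.card_univ, smul_eq_mul, mul_one,
      Finset.sum_ite_mem, Finset.univ_inter] at hsum
    have hq : Z.card * Nat.card F ≤ 2 * Fintype.card U2 := by
      rcases Z.eq_empty_or_nonempty with he | ⟨π0, hπ0⟩
      · simp [he]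
      have hQ : B π0.1 π0.1 ≠ 0 := by rw [(Finset.mem_filter.1 hπ0).2]; exact hc
      have := card_quad_le hsymm U2 π0.1 π0.2 hQ c
      rw [Nat.card_eq_fintype_card (α := {z : U2 // B z.1 z.1 = c}), Fintype.card_subtype] at this
      calc Z.card * Nat.card F ≤ 2 * Nat.card (perp B U2 π0.1) * Nat.card F :=
            Nat.mul_le_mul_right _ this
        _ = 2 * Fintype.card U2 := by
            rw [mul_assoc, ← card_perp U2 π0.1 π0.2 hQ, Nat.card_eq_fintype_card]
    nlinarith

end Quadric

variable {F : Type*} [Field F]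

theorem addChar_sum {A ι : Type*} [AddCommMonoid A] (φ : AddChar A ℂ) (s : Finset ι) (f : ι → A) :
    φ (∑ a ∈ s, f a) = ∏ a ∈ s, φ (f a) := by
  classical
  induction s using Finset.induction_on with
  | empty => simp
  | insert a s ha ih => rw [Finset.sum_insert ha, Finset.prod_insert ha, AddChar.map_add_eq_mul, ih]

theorem exists_pair_move {k : ℕ} (p q : Fin (k + 2) → F)
    (h : LinearIndependent F ![p, q]) :
    ∃ g : GL (Fin (k + 2)) F, g.1 *ᵥ Pi.single 0 1 = p ∧ g.1 *ᵥ Pi.single 1 1 = q := by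
  classical
  obtain ⟨g, hg⟩ : ∃ g : GL (Fin (k + 2)) F, g.1 *ᵥ Pi.single 0 1 = p := by
    obtain ⟨a, ha⟩ := exists_sl_apply_single (F := F) (k := k + 2) (by omega) p (h.ne_zero 0)
    exact ⟨GeneralLinearGroup.mkOfDetNeZero a.1 (by rw [a.2]; exact one_ne_zero), ha⟩
  set q' := (g⁻¹).1 *ᵥ q with hq'
  have hgq : g.1 *ᵥ q' = q := by
    rw [hq', Matrix.mulVec_mulVec, ← Units.val_mul, mul_inv_cancel, Units.val_one, Matrix.one_mulVec]
  obtain ⟨c, hc0, hc⟩ : ∃ c : Fin (k + 2), c ≠ 0 ∧ q' c ≠ 0 := by
    by_contra! hall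
    have e : q' = q' 0 • Pi.single 0 1 := funext fun u => by
      rcases eq_or_ne u 0 with rfl | hu
      · simp
      · simp [hall u hu, hu]
    have := (linearIndependent_fin2.1 h)
    apply this.2 (q' 0)⁻¹
    have e2 : q = q' 0 • p := by rw [← hgq, e, Matrix.mulVec_smul, hg]; simp
    have h0 : q' 0 ≠ 0 := fun h0 => this.1 (by simp [e2, h0])
    simp [e2, smul_smul, h0]
  let m := (1 : Matrix (Fin (k + 2)) (Fin (k + 2)) F).updateCol c q'
  let π : Matrix (Fin (k + 2)) (Fin (k + 2)) F := (Equiv.swap (1 : Fin (k + 2)) c).permMatrix F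
  have hm : m.det ≠ 0 := by
    simp only [m]
    rw [← Matrix.cramer_apply, Matrix.cramer_one]
    simpa using hc
  have hπ : π.det ≠ 0 := by
    simp only [π, Matrix.det_permutation]
    rcases eq_or_ne (1 : Fin (k + 2)) c with e | e
    · simp [e]
    · simp [Equiv.Perm.sign_swap e]
  refine ⟨g * GeneralLinearGroup.mkOfDetNeZero (m * π) (by
    rw [Matrix.det_mul]; exact mul_ne_zero hm hπ), ?_, ?_⟩
  · rw [Units.val_mul, ← Matrix.mulVec_mulVec, show (GeneralLinearGroup.mkOfDetNeZero (m * π) _).1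
      = m * π from rfl, ← Matrix.mulVec_mulVec, Matrix.permMatrix_mulVec]
    have e : (Pi.single (0 : Fin (k + 2)) (1 : F) ∘ ⇑(Equiv.swap (1 : Fin (k + 2)) c)) =
        Pi.single 0 1 := by
      funext u
      simp [Pi.single_apply, Equiv.swap_apply_eq_iff,
        Equiv.swap_apply_of_ne_of_ne (show (0 : Fin (k + 2)) ≠ 1 by simp) hc0.symm]
    rw [e, Matrix.mulVec_single_one]
    rw [show m.col 0 = Pi.single 0 1 from funext fun u => by
      simp [m, Matrix.col, Matrix.updateCol_apply, hc0.symm, Matrix.one_apply, Pi.single_apply]]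
    exact hg
  · rw [Units.val_mul, ← Matrix.mulVec_mulVec, show (GeneralLinearGroup.mkOfDetNeZero (m * π) _).1
      = m * π from rfl, ← Matrix.mulVec_mulVec, Matrix.permMatrix_mulVec]
    have e : (Pi.single (1 : Fin (k + 2)) (1 : F) ∘ ⇑(Equiv.swap (1 : Fin (k + 2)) c)) =
        Pi.single c 1 := by
      funext u
      simp [Pi.single_apply, Equiv.swap_apply_eq_iff]
    rw [e, Matrix.mulVec_single_one]
    rw [show m.col c = q' from funext fun u => by simp [m, Matrix.col, Matrix.updateCol_apply]]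
    exact hgq

variable [Fintype F] {ψ : AddChar F ℂ} {k : ℕ}
variable {V : Type*} [AddCommGroup V] [Module ℂ V]
variable {R : Matrix.symplecticGroup (Fin (k + 2)) F →* Module.End ℂ V}

/-- the symmetric bilinear form of a Siegel weight -/
theorem exists_form (hψ : ψ.IsPrimitive) (χ : Matrix (Fin (k + 2)) (Fin (k + 2)) F → ℂ)
    (hχ : IsWeight (fun M => R (siegel M)) χ) :
    ∃ B : (Fin (k + 2) → F) →ₗ[F] (Fin (k + 2) → F) →ₗ[F] F, (∀ u v, B u v = B v u) ∧
      (∀ u v s, χ (s • vecMulVec u v) = ψ (B u v * s)) ∧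
      ∀ M, χ M = ψ (∑ a, ∑ b, M a b * B (Pi.single a 1) (Pi.single b 1)) := by
  classical
  obtain ⟨φ, rfl⟩ := weight_addChar R siegel siegel_add χ hχ
  have htr : ∀ M, φ Mᵀ = φ M := fun M => by
    obtain ⟨v, hv0, hv⟩ := hχ
    dsimp only at hv
    apply smul_left_injective ℂ hv0
    dsimp only
    rw [← hv, ← hv, siegel_transpose]
  have hbij : ∀ η : AddChar F ℂ, ∃ c : F, ∀ s, η s = ψ (c * s) := fun η => by
    obtain ⟨c, hc⟩ := character_eq_comp (fun c => ψ.mulShift c)
      (AddChar.to_mulShift_inj_of_isPrimitive hψ) η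
    exact ⟨c, fun s => by rw [← hc, AddChar.mulShift_apply]⟩
  choose β hβ using fun u v : Fin (k + 2) → F => hbij (φ.compAddMonoidHom
    ((LinearMap.toSpanSingleton F _ (vecMulVec u v)).toAddMonoidHom))
  have hβ' : ∀ u v s, φ (s • vecMulVec u v) = ψ (β u v * s) := fun u v s => by
    rw [← hβ]; simp
  let B := LinearMap.mk₂ F β
    (fun u u' v => char_inj hψ fun s => by
      rw [← hβ', Matrix.add_vecMulVec, smul_add, AddChar.map_add_eq_mul, hβ', hβ', add_mul,
        AddChar.map_add_eq_mul])
    (fun c u v => char_inj hψ fun s => by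
      rw [← hβ', Matrix.smul_vecMulVec, smul_smul, hβ', smul_eq_mul]; congr 1; ring)
    (fun u v v' => char_inj hψ fun s => by
      rw [← hβ', Matrix.vecMulVec_add, smul_add, AddChar.map_add_eq_mul, hβ', hβ', add_mul,
        AddChar.map_add_eq_mul])
    (fun c u v => char_inj hψ fun s => by
      rw [← hβ', Matrix.vecMulVec_smul, smul_smul, hβ', smul_eq_mul]; congr 1; ring)
  refine ⟨B, fun u v => char_inj hψ fun s => ?_, hβ', fun M => ?_⟩
  · change ψ (β u v * s) = ψ (β v u * s)
    rw [← hβ', ← hβ', ← htr, Matrix.transpose_smul, Matrix.transpose_vecMulVec]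
  conv_lhs => rw [Matrix.matrix_eq_sum_single M]
  have hs : ∀ a b, φ (Matrix.single a b (M a b)) =
      ψ (M a b * B (Pi.single a 1) (Pi.single b 1)) := fun a b => by
    rw [show Matrix.single a b (M a b) = M a b • vecMulVec (Pi.single a 1) (Pi.single b 1) by
      ext x y
      by_cases hx : a = x <;> by_cases hy : b = y <;>
        simp [Matrix.single_apply, Matrix.vecMulVec_apply, hx, hy, Ne.symm], hβ', mul_comm]
    rfl
  rw [addChar_sum, addChar_sum]
  refine Finset.prod_congr rfl fun a _ => ?_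
  rw [addChar_sum, addChar_sum]
  exact Finset.prod_congr rfl fun b _ => hs a b

/-- rank at most one, or a non-degenerate plane -/
theorem rank_cases (hψ : ψ.IsPrimitive) (χ : Matrix (Fin (k + 2)) (Fin (k + 2)) F → ℂ)
    (hχ : IsWeight (fun M => R (siegel M)) χ) (h2 : (2 : F) ≠ 0) :
    (∃ (c : F) (x : Fin (k + 2) → F), ∀ M, χ M = ψ (c * (x ⬝ᵥ M *ᵥ x))) ∨
    ∃ (u v : Fin (k + 2) → F) (b0 b1 : F), b0 ≠ 0 ∧ b1 ≠ 0 ∧
      (∀ s : F, χ (s • vecMulVec u u) = ψ (b0 * s)) ∧
      (∀ s : F, χ (s • vecMulVec v v) = ψ (b1 * s)) ∧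
      (∀ s : F, χ (s • vecMulVec u v) = 1) := by
  classical
  obtain ⟨B, hsymm, hB, hM⟩ := exists_form hψ χ hχ
  by_cases h0 : ∀ u, B u u = 0
  · left
    refine ⟨0, 0, fun M => ?_⟩
    have : ∀ u v, B u v = 0 := fun u v => by
      have := h0 (u + v)
      simp only [map_add, LinearMap.add_apply, h0, hsymm v u, zero_add, add_zero] at this
      exact (mul_eq_zero.1 (show (2 : F) * B u v = 0 by linear_combination this)).resolve_left h2
    simp [hM, this]
  push Not at h0
  obtain ⟨v0, hv0⟩ := h0
  by_cases h1 : ∀ w, B v0 v0 * B w w = B v0 w * B v0 w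
  · left
    refine ⟨(B v0 v0)⁻¹, fun a => B v0 (Pi.single a 1), fun M => ?_⟩
    have key : ∀ u w, B v0 v0 * B u w = B v0 u * B v0 w := fun u w => by
      have := h1 (u + w)
      simp only [map_add, LinearMap.add_apply, hsymm w u] at this
      refine mul_left_cancel₀ h2 ?_
      linear_combination this - h1 u - h1 w
    rw [hM, dotProduct, Finset.mul_sum]
    congr 1
    refine Finset.sum_congr rfl fun a _ => ?_
    rw [Matrix.mulVec, dotProduct, Finset.mul_sum, Finset.mul_sum]
    refine Finset.sum_congr rfl fun b _ => ?_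
    field_simp
    linear_combination (M a b) * key (Pi.single a 1) (Pi.single b 1)
  · right
    push Not at h1
    obtain ⟨w, hw⟩ := h1
    refine ⟨v0, w - (B v0 w / B v0 v0) • v0, B v0 v0,
      B w w - B v0 w * B v0 w / B v0 v0, hv0, ?_, fun s => hB _ _ s, fun s => ?_, fun s => ?_⟩
    · intro h
      apply hw
      field_simp at h
      linear_combination h
    · rw [hB]
      congr 2
      simp only [map_sub, map_smul, LinearMap.sub_apply, LinearMap.smul_apply, smul_eq_mul,
        hsymm w v0]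
      field_simp
      ring
    · rw [hB, map_sub, map_smul, smul_eq_mul, div_mul_cancel₀ _ hv0, sub_self, zero_mul,
        AddChar.map_zero_eq_one]

/-- the degree bound from a weight of rank at least two -/
theorem rank_two_bound [FiniteDimensional ℂ V] (hψ : ψ.IsPrimitive) (h2 : (2 : F) ≠ 0)
    (χ₀ : Matrix (Fin (k + 2)) (Fin (k + 2)) F → ℂ) (hχ₀ : IsWeight (fun M => R (siegel M)) χ₀)
    (u0 v0 : Fin (k + 2) → F) (b0 b1 : F) (hb0 : b0 ≠ 0) (hb1 : b1 ≠ 0)
    (hu : ∀ s : F, χ₀ (s • vecMulVec u0 u0) = ψ (b0 * s))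
    (hv : ∀ s : F, χ₀ (s • vecMulVec v0 v0) = ψ (b1 * s))
    (huv : ∀ s : F, χ₀ (s • vecMulVec u0 v0) = 1) :
    (Fintype.card F ^ (k + 2) - 1) * (Fintype.card F ^ (k + 2) - Fintype.card F) ≤
      Module.finrank ℂ V * (2 * (Fintype.card F + 1)) := by
  classical
  set q := Fintype.card F with hq
  obtain ⟨W, hW⟩ := MinDeg.exists_weightFinset (fun M => R (siegel M))
  choose B hsymm hB hBM using fun χ (h : IsWeight (fun M => R (siegel M)) χ) =>
    exists_form hψ χ h
  obtain ⟨e00, e11, e01⟩ : B χ₀ hχ₀ u0 u0 = b0 ∧ B χ₀ hχ₀ v0 v0 = b1 ∧ B χ₀ hχ₀ u0 v0 = 0 :=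
    ⟨char_inj hψ fun s => (hB _ _ _ _ s).symm.trans (hu s),
      char_inj hψ fun s => (hB _ _ _ _ s).symm.trans (hv s),
      char_inj hψ fun s => by rw [← hB, huv, zero_mul, AddChar.map_zero_eq_one]⟩
  let P : (Matrix (Fin (k + 2)) (Fin (k + 2)) F → ℂ) →
      {p : (Fin (k + 2) → F) × (Fin (k + 2) → F) // LinearIndependent F ![p.1, p.2]} → Prop :=
    fun χ p => ∃ h, B χ h p.1.1 p.1.1 = b0 ∧ B χ h p.1.2 p.1.2 = b1 ∧ B χ h p.1.1 p.1.2 = 0
  -- a pair is adapted to many weights
  have hlow : ∀ p, q ^ k * q ^ k ≤ (W.filter fun χ => P χ p).card := by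
    rintro ⟨⟨p1, p2⟩, hp⟩
    simp only at hp
    have h0 : LinearIndependent F ![u0, v0] := by
      rw [linearIndependent_fin2]
      refine ⟨fun h => hb1 ?_, fun a h => hb0 ?_⟩
      · have h' : v0 = 0 := by simpa using h
        rw [← e11, h']; simp
      · have h' : a • v0 = u0 := by simpa using h
        rw [← e00, show B χ₀ hχ₀ u0 u0 = B χ₀ hχ₀ u0 (a • v0) by rw [h'], map_smul, e01,
          smul_zero]
    obtain ⟨C, hC0, hC1⟩ := exists_pair_move p1 p2 hp
    obtain ⟨C0, hD0, hD1⟩ := exists_pair_move u0 v0 h0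
    -- the translations
    let N : (Fin k → F) × (Fin k → F) → Matrix (Fin (k + 2)) (Fin (k + 2)) F := fun w => Matrix.of
      fun a c => (if a = c then 1 else 0) + (if hc : 2 ≤ (c : ℕ) then
        (if a = 0 then w.1 ⟨c - 2, by omega⟩ else if a = 1 then w.2 ⟨c - 2, by omega⟩ else 0)
        else 0)
    have hNdet : ∀ w, (N w).det ≠ 0 := by
      intro w
      rw [Matrix.det_of_upperTriangular (fun a c hac => ?_)]
      · refine Finset.prod_ne_zero_iff.2 fun a _ => ?_
        simp only [N, Matrix.of_apply, if_true]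
        split_ifs with h h' h''
        · subst h'; simp at h
        · subst h''; simp at h
        · simp
        · simp
      · simp only [id] at hac
        simp only [N, Matrix.of_apply, if_neg (ne_of_gt hac), zero_add]
        split_ifs with h h' h''
        · subst h'; exact absurd hac (Fin.not_lt_zero _)
        · subst h''; rw [Fin.lt_def, Fin.val_one] at hac; omega
        · rfl
        · rfl
    let T : (Fin k → F) × (Fin k → F) → GL (Fin (k + 2)) F := fun w =>
      C0 * GeneralLinearGroup.mkOfDetNeZero (N w) (hNdet w) * C⁻¹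
    let g : (Fin k → F) × (Fin k → F) → GL (Fin (k + 2)) F := fun w =>
      GeneralLinearGroup.mkOfDetNeZero (T w).1ᵀ (by
        rw [Matrix.det_transpose]; exact Matrix.det_ne_zero_of_right_inverse (T w).mul_inv)
    let f : (Fin k → F) × (Fin k → F) → (Matrix (Fin (k + 2)) (Fin (k + 2)) F → ℂ) :=
      fun w M => χ₀ ((g w).1ᵀ * M * (g w).1)
    have hf : ∀ w, IsWeight (fun M => R (siegel M)) (f w) := by
      intro w
      obtain ⟨x, hx0, hx⟩ := hχ₀
      refine ⟨R (lev (g w)) x, fun h => hx0 (by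
        rw [← apply_inv_apply R (lev (g w)) x, h, map_zero]), fun M => ?_⟩
      have e : (g w).1 * ((g w)⁻¹).1 = 1 := by
        rw [← Units.val_mul, mul_inv_cancel, Units.val_one]
      have h := lev_siegel (g w) ((g w).1ᵀ * M * (g w).1)
      rw [show ((g w)⁻¹).1ᵀ * ((g w).1ᵀ * M * (g w).1) * ((g w)⁻¹).1 = M from by
        simp only [← Matrix.mul_assoc]
        rw [← Matrix.transpose_mul, e, Matrix.transpose_one, Matrix.one_mul, Matrix.mul_assoc, e,
          Matrix.mul_one]] at h
      dsimp only at hx ⊢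
      rw [← apply_mul, ← h, apply_mul, hx, map_smul]
    have hBf : ∀ w a c, B (f w) (hf w) a c = B χ₀ hχ₀ ((T w).1 *ᵥ a) ((T w).1 *ᵥ c) := fun w a c =>
      char_inj hψ fun s => by
        rw [← hB, ← hB]
        change χ₀ _ = χ₀ _
        congr 1
        rw [show (g w).1 = (T w).1ᵀ from rfl, Matrix.transpose_transpose, Matrix.mul_smul,
          Matrix.smul_mul, Matrix.mul_vecMulVec, Matrix.vecMulVec_mul, Matrix.vecMul_transpose]
    have hC' : ∀ x, (C⁻¹).1 *ᵥ (C.1 *ᵥ x) = x := fun x => by
      rw [Matrix.mulVec_mulVec, ← Units.val_mul, inv_mul_cancel, Units.val_one, Matrix.one_mulVec]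
    have hTe : ∀ w x, (T w).1 *ᵥ (C.1 *ᵥ x) = C0.1 *ᵥ (N w *ᵥ x) := fun w x => by
      simp only [T, Units.val_mul, ← Matrix.mulVec_mulVec, hC']
      rfl
    have hN0 : ∀ w, N w *ᵥ Pi.single 0 1 = Pi.single 0 1 := fun w => by
      rw [Matrix.mulVec_single_one]; ext a; simp [N, Pi.single_apply]
    have hN1 : ∀ w, N w *ᵥ Pi.single 1 1 = Pi.single 1 1 := fun w => by
      rw [Matrix.mulVec_single_one]; ext a; simp [N, Pi.single_apply]
    have hT1 : ∀ w, (T w).1 *ᵥ p1 = u0 := fun w => by rw [← hC0, hTe, hN0, hD0]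
    have hT2 : ∀ w, (T w).1 *ᵥ p2 = v0 := fun w => by rw [← hC1, hTe, hN1, hD1]
    have hinj : Function.Injective f := by
      intro w w' h
      have hh : ∀ a c, B (f w) (hf w) a c = B (f w') (hf w') a c := fun a c =>
        char_inj hψ fun s => by rw [← hB, ← hB, h]
      have hcol : ∀ (w : (Fin k → F) × (Fin k → F)) (c : Fin k),
          N w *ᵥ Pi.single (⟨c + 2, by omega⟩ : Fin (k + 2)) 1 =
            Pi.single ⟨c + 2, by omega⟩ 1 + w.1 c • Pi.single 0 1 + w.2 c • Pi.single 1 1 := by
        intro w c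
        rw [Matrix.mulVec_single_one]
        ext a
        simp [N, Pi.single_apply]
        rcases eq_or_ne a 0 with rfl | ha0
        · simp
        rcases eq_or_ne a 1 with rfl | ha1
        · simp
        · simp [ha0, ha1]
      refine Prod.ext (funext fun c => ?_) (funext fun c => ?_)
      · have := hh (C.1 *ᵥ Pi.single ⟨c + 2, by omega⟩ 1) p1
        rw [hBf, hBf, hTe, hTe, hT1, hT1, hcol, hcol, Matrix.mulVec_add, Matrix.mulVec_add,
          Matrix.mulVec_add, Matrix.mulVec_add, Matrix.mulVec_smul, Matrix.mulVec_smul,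
          Matrix.mulVec_smul, Matrix.mulVec_smul, hD0, hD1] at this
        simp only [map_add, map_smul, LinearMap.add_apply, LinearMap.smul_apply, smul_eq_mul,
          hsymm χ₀ hχ₀ v0 u0, e00, e01, mul_zero, add_zero] at this
        exact mul_right_cancel₀ hb0 (add_left_cancel this)
      · have := hh (C.1 *ᵥ Pi.single ⟨c + 2, by omega⟩ 1) p2
        rw [hBf, hBf, hTe, hTe, hT2, hT2, hcol, hcol, Matrix.mulVec_add, Matrix.mulVec_add,
          Matrix.mulVec_add, Matrix.mulVec_add, Matrix.mulVec_smul, Matrix.mulVec_smul,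
          Matrix.mulVec_smul, Matrix.mulVec_smul, hD0, hD1] at this
        simp only [map_add, map_smul, LinearMap.add_apply, LinearMap.smul_apply, smul_eq_mul,
          e11, e01, mul_zero, add_zero] at this
        exact mul_right_cancel₀ hb1 (add_left_cancel this)
    have := MinDeg.card_filter_ge_of_injective W (fun χ => P χ ⟨(p1, p2), hp⟩) f hinj
      (fun w => (hW _).2 (hf w)) (fun w => ⟨hf w, by rw [hBf, hT1, e00], by rw [hBf, hT2, e11],
        by rw [hBf, hT1, hT2, e01]⟩)
    rwa [Fintype.card_prod, Fintype.card_fun, Fintype.card_fin] at this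
  -- a weight is adapted to few pairs
  have hup : ∀ χ ∈ W, (Finset.univ.filter fun p => P χ p).card ≤ (q + 1) * q ^ k * (2 * q ^ k) := by
    intro χ hχW
    have hχ := (hW χ).1 hχW
    rcases (Finset.univ.filter fun p => P χ p).eq_empty_or_nonempty with he | ⟨⟨⟨z1, z2⟩, hz⟩, hzP⟩
    · simp [he]
    obtain ⟨_, hz00, hz11, hz01⟩ := (Finset.mem_filter.1 hzP).2
    set β := B χ hχ
    have hβ := hsymm χ hχ
    have hcard : Nat.card (⊤ : Submodule F (Fin (k + 2) → F)) = q ^ k * q * q := by
      rw [Nat.card_congr (Equiv.subtypeUnivEquiv fun _ => Submodule.mem_top),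
        Nat.card_eq_fintype_card, Fintype.card_fun, Fintype.card_fin, pow_succ, pow_succ]
    have hperp2 : ∀ a c : Fin (k + 2) → F, β a a ≠ 0 → c ∈ perp β ⊤ a → β c c ≠ 0 →
        Nat.card (perp β (perp β ⊤ a) c) = q ^ k := by
      intro a c ha hc hcc
      have e1 := card_perp ⊤ a Submodule.mem_top ha
      have e2 := card_perp (perp β ⊤ a) c hc hcc
      rw [hcard, e2, Nat.card_eq_fintype_card (α := F), ← hq] at e1
      have hq0 : 0 < q := Fintype.card_pos
      exact (Nat.eq_of_mul_eq_mul_right hq0 (Nat.eq_of_mul_eq_mul_right hq0 e1)).symm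
    have hw2 : z2 ∈ perp β ⊤ z1 := ⟨Submodule.mem_top, LinearMap.mem_ker.2 hz01⟩
    have hfirst : Nat.card {z : (⊤ : Submodule F (Fin (k + 2) → F)) // β z.1 z.1 = b0} ≤
        (q + 1) * q ^ k := by
      refine (card_quad_sharp hβ h2 ⊤ z1 z2 Submodule.mem_top (by rw [hz00]; exact hb0) hw2
        (by rw [hz11]; exact hb1) b0 hb0).trans_eq ?_
      rw [hperp2 _ _ (by rw [hz00]; exact hb0) hw2 (by rw [hz11]; exact hb1),
        Nat.card_eq_fintype_card]
    have hsecond : ∀ a, β a a = b0 →
        Nat.card {z : perp β ⊤ a // β z.1 z.1 = b1} ≤ 2 * q ^ k := by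
      intro a ha
      rcases isEmpty_or_nonempty {z : perp β ⊤ a // β z.1 z.1 = b1} with h | ⟨⟨c, hc⟩⟩
      · simp
      refine (card_quad_le hβ (perp β ⊤ a) c.1 c.2 (by rw [hc]; exact hb1) b1).trans_eq ?_
      rw [hperp2 _ _ (by rw [ha]; exact hb0) c.2 (by rw [hc]; exact hb1)]
    rw [← Nat.card_eq_finsetCard]
    let A := {z : (⊤ : Submodule F (Fin (k + 2) → F)) // β z.1 z.1 = b0}
    let f : {p // p ∈ Finset.univ.filter fun p => P χ p} →
        Σ a : A, {z : perp β ⊤ a.1.1 // β z.1 z.1 = b1} := fun p =>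
      ⟨⟨⟨p.1.1.1, Submodule.mem_top⟩, by
          obtain ⟨_, h, -, -⟩ := (Finset.mem_filter.1 p.2).2; exact h⟩,
        ⟨p.1.1.2, Submodule.mem_top, LinearMap.mem_ker.2 (by
          obtain ⟨_, -, -, h⟩ := (Finset.mem_filter.1 p.2).2; exact h)⟩, by
          obtain ⟨_, -, h, -⟩ := (Finset.mem_filter.1 p.2).2; exact h⟩
    have hf : Function.Injective f := by
      intro x y h
      have h1 := congrArg (fun s : Σ a : A, {z : perp β ⊤ a.1.1 // β z.1 z.1 = b1} =>
        (s.1.1.1, s.2.1.1)) h
      exact Subtype.ext (Subtype.ext h1)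
    refine (Nat.card_le_card_of_injective f hf).trans ?_
    have := Fintype.ofFinite A
    rw [Nat.card_sigma]
    refine (Finset.sum_le_sum fun a _ => hsecond a.1.1 a.2).trans ?_
    rw [Finset.sum_const, Finset.card_univ, smul_eq_mul, ← Nat.card_eq_fintype_card]
    exact Nat.mul_le_mul_right _ hfirst
  have hmain := MinDeg.double_count W P _ _ hlow hup
  have hWle : W.card ≤ Module.finrank ℂ V := by
    have := MinDeg.mul_card_le_finrank (fun M => R (siegel M)) W 1 fun χ hχ =>
      Submodule.one_le_finrank_iff.2 (MinDeg.isWeight_iff.1 ((hW χ).1 hχ))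
    rwa [mul_one] at this
  have hpairs : Fintype.card {p : (Fin (k + 2) → F) × (Fin (k + 2) → F) //
      LinearIndependent F ![p.1, p.2]} = (q ^ (k + 2) - 1) * (q ^ (k + 2) - q) := by
    let e : {p : (Fin (k + 2) → F) × (Fin (k + 2) → F) // LinearIndependent F ![p.1, p.2]} ≃
        { s : Fin 2 → (Fin (k + 2) → F) // LinearIndependent F s } :=
      { toFun := fun p => ⟨![p.1.1, p.1.2], p.2⟩
        invFun := fun s => ⟨(s.1 0, s.1 1), by
          convert s.2 using 1
          funext a
          fin_cases a <;> rfl⟩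
        left_inv := fun p => Subtype.ext (Prod.ext rfl rfl)
        right_inv := fun s => Subtype.ext (funext fun a => by fin_cases a <;> rfl) }
    rw [← Nat.card_eq_fintype_card, Nat.card_congr e, card_linearIndependent (by simp)]
    simp [Fin.prod_univ_two, hq]
  rw [hpairs] at hmain
  have hpos : 0 < q ^ k * q ^ k := by
    have : 0 < q := Fintype.card_pos
    positivity
  refine Nat.le_of_mul_le_mul_right ?_ hpos
  calc _ ≤ W.card * ((q + 1) * q ^ k * (2 * q ^ k)) := hmain
    _ ≤ Module.finrank ℂ V * ((q + 1) * q ^ k * (2 * q ^ k)) := Nat.mul_le_mul_right _ hWle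
    _ = _ := by ring

end Cfsg.Agent.FGS75.Weil
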