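import Cfsg.Agent.MinDeg.SpOdd
import Mathlib.LinearAlgebra.Matrix.Transvection

/-!
Generators of `Sp_2n(F)` (Siegel radical, Levi subgroup, one root Weyl element) and their relations.
-/

namespace Cfsg.Agent.FGS75.Weil

open Matrix
open Cfsg.Agent.MinDeg (siegel siegel_add)

variable {F : Type*} [Field F] {n : ℕ}

local notation "Sp" => Matrix.symplecticGroup (Fin n) F

/-- the Levi element acting as `g` on the dual coordinates -/
def lev : GL (Fin n) F →* Matrix.symplecticGroup (Fin n) F where
  toFun g := ⟨fromBlocks (g⁻¹).1ᵀ 0 0 g.1, by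
    rw [SymplecticGroup.mem_iff, Matrix.J, fromBlocks_transpose, fromBlocks_multiply,
      fromBlocks_multiply]
    have h1 : (g⁻¹).1ᵀ * g.1ᵀ = 1 := by
      rw [← Matrix.transpose_mul, ← Units.val_mul, mul_inv_cancel, Units.val_one, Matrix.transpose_one]
    have h2 : g.1 * (g⁻¹).1 = 1 := by rw [← Units.val_mul, mul_inv_cancel, Units.val_one]
    simp [-Matrix.coe_units_inv, h1, h2]⟩
  map_one' := Subtype.ext (by simp [fromBlocks_one])
  map_mul' g h := Subtype.ext (by
    change fromBlocks ((g * h)⁻¹).1ᵀ 0 0 (g * h).1 =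
      fromBlocks (g⁻¹).1ᵀ 0 0 g.1 * fromBlocks (h⁻¹).1ᵀ 0 0 h.1
    rw [fromBlocks_multiply]
    simp [-Matrix.coe_units_inv, _root_.mul_inv_rev, Matrix.transpose_mul])

theorem lev_siegel (g : GL (Fin n) F) (M : Matrix (Fin n) (Fin n) F) :
    lev g * siegel M = siegel ((g⁻¹).1ᵀ * M * (g⁻¹).1) * lev g := by
  apply Subtype.ext
  change fromBlocks (g⁻¹).1ᵀ 0 0 g.1 * fromBlocks 1 (M + Mᵀ) 0 1 =
    fromBlocks 1 ((g⁻¹).1ᵀ * M * (g⁻¹).1 + ((g⁻¹).1ᵀ * M * (g⁻¹).1)ᵀ) 0 1 *
      fromBlocks (g⁻¹).1ᵀ 0 0 g.1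
  have h2 : (g⁻¹).1 * g.1 = 1 := by rw [← Units.val_mul, inv_mul_cancel, Units.val_one]
  rw [fromBlocks_multiply, fromBlocks_multiply]
  simp only [Matrix.transpose_mul, Matrix.transpose_transpose, Matrix.mul_add, Matrix.add_mul,
    Matrix.mul_assoc, h2, Matrix.mul_one, Matrix.one_mul, Matrix.mul_zero, Matrix.zero_mul,
    add_zero, zero_add]

/-- `-1` -/
theorem lev_neg_one_comm (g : Matrix.symplecticGroup (Fin n) F) :
    g * lev (-1 : GL (Fin n) F) = lev (-1 : GL (Fin n) F) * g := by
  apply Subtype.ext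
  have : (lev (-1 : GL (Fin n) F)).1 = -1 := by
    change fromBlocks ((-1 : GL (Fin n) F)⁻¹).1ᵀ 0 0 ((-1 : GL (Fin n) F)).1 = _
    rw [← fromBlocks_one, fromBlocks_neg]
    simp
  change g.1 * (lev (-1 : GL (Fin n) F)).1 = (lev (-1 : GL (Fin n) F)).1 * g.1
  rw [this]
  simp

/-- transvection -/
def tv (i j : Fin n) (h : i ≠ j) (c : F) : GL (Fin n) F where
  val := transvection i j c
  inv := transvection i j (-c)
  val_inv := by rw [transvection_mul_transvection_same _ _ h, add_neg_cancel, transvection_zero]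
  inv_val := by rw [transvection_mul_transvection_same _ _ h, neg_add_cancel, transvection_zero]

theorem tv_mul (i j : Fin n) (h : i ≠ j) (b c : F) : tv i j h b * tv i j h c = tv i j h (b + c) :=
  Units.ext (transvection_mul_transvection_same _ _ h b c)

theorem tv_zero (i j : Fin n) (h : i ≠ j) : tv i j h (0 : F) = 1 :=
  Units.ext (transvection_zero _ _)

theorem tv_mulVec (i j : Fin n) (h : i ≠ j) (c : F) (x : Fin n → F) :
    (tv i j h c).1 *ᵥ x = x + (c * x j) • Pi.single i 1 := by
  change transvection i j c *ᵥ x = _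
  ext k
  rcases eq_or_ne k i with rfl | hk
  · simp [transvection, Matrix.add_mulVec, Matrix.single_mulVec]
  · simp [transvection, Matrix.add_mulVec, Matrix.single_mulVec, Pi.single_apply, hk]

/-- one coordinate scaling -/
def dg (i : Fin n) (t : Fˣ) : GL (Fin n) F where
  val := Matrix.diagonal (Function.update 1 i (t : F))
  inv := Matrix.diagonal (Function.update 1 i ((t⁻¹ : Fˣ) : F))
  val_inv := by
    rw [Matrix.diagonal_mul_diagonal, ← Matrix.diagonal_one]
    congr 1
    funext k
    rcases eq_or_ne k i with rfl | hk <;> simp [*]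
  inv_val := by
    rw [Matrix.diagonal_mul_diagonal, ← Matrix.diagonal_one]
    congr 1
    funext k
    rcases eq_or_ne k i with rfl | hk <;> simp [*]

theorem dg_mulVec_single (i k : Fin n) (t : Fˣ) (hk : k ≠ i) :
    (dg i t).1 *ᵥ Pi.single k 1 = Pi.single k 1 := by
  ext a
  simp only [dg, Matrix.mulVec_diagonal, Pi.single_apply]
  rcases eq_or_ne a k with rfl | ha
  · simp [hk]
  · simp [ha]

theorem dg_tv_left (i j : Fin n) (h : i ≠ j) (t : Fˣ) (c : F) :
    dg i t * tv i j h c = tv i j h ((t : F) * c) * dg i t := by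
  apply Units.ext
  change Matrix.diagonal _ * transvection i j c = transvection i j _ * Matrix.diagonal _
  ext a b
  rw [Matrix.diagonal_mul, Matrix.mul_diagonal]
  simp only [transvection, Matrix.add_apply, Matrix.one_apply, Matrix.single_apply]
  rcases eq_or_ne a b with rfl | hab
  · by_cases ha : i = a ∧ j = a
    · exact absurd (ha.1.trans ha.2.symm) h
    · rw [if_neg ha, if_neg ha]; simp
  · rw [if_neg hab]
    by_cases ha : i = a ∧ j = b
    · obtain ⟨rfl, rfl⟩ := ha
      simp [h.symm]
    · rw [if_neg ha, if_neg ha]; simp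

theorem dg_tv_right (i j : Fin n) (h : i ≠ j) (t : Fˣ) (c : F) :
    dg j t * tv i j h ((t : F) * c) = tv i j h c * dg j t := by
  apply Units.ext
  change Matrix.diagonal _ * transvection i j _ = transvection i j c * Matrix.diagonal _
  ext a b
  rw [Matrix.diagonal_mul, Matrix.mul_diagonal]
  simp only [transvection, Matrix.add_apply, Matrix.one_apply, Matrix.single_apply]
  rcases eq_or_ne a b with rfl | hab
  · by_cases ha : i = a ∧ j = a
    · exact absurd (ha.1.trans ha.2.symm) h
    · rw [if_neg ha, if_neg ha]; simp [mul_comm]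
  · rw [if_neg hab]
    by_cases ha : i = a ∧ j = b
    · obtain ⟨rfl, rfl⟩ := ha
      simp [h, mul_comm]
    · rw [if_neg ha, if_neg ha]; simp

/-- the Weyl element of the `i`-th long root -/
def wi (i : Fin n) : Matrix.symplecticGroup (Fin n) F :=
  ⟨fromBlocks (1 - single i i 1) (single i i 1) (-single i i 1) (1 - single i i 1), by
    rw [SymplecticGroup.mem_iff, Matrix.J, fromBlocks_transpose, fromBlocks_multiply,
      fromBlocks_multiply]
    simp [Matrix.transpose_single, sub_mul, mul_sub, Matrix.single_mul_single_same]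
    abel⟩

theorem wi_comm (i k : Fin n) (h : i ≠ k) : wi (F := F) i * wi k = wi k * wi i := by
  apply Subtype.ext
  change fromBlocks _ _ _ _ * fromBlocks _ _ _ _ = fromBlocks _ _ _ _ * fromBlocks _ _ _ _
  rw [fromBlocks_multiply, fromBlocks_multiply]
  refine fromBlocks_inj.2 ⟨?_, ?_, ?_, ?_⟩ <;>
    simp [sub_mul, mul_sub, add_mul, mul_add, Matrix.transpose_single, Matrix.transpose_add,
      Matrix.single_mul_single_same, Matrix.single_mul_single_of_ne, Matrix.smul_single, h, h.symm] <;>
    ext x y <;> simp [Matrix.single_apply, Matrix.one_apply] <;> split_ifs <;> simp_all <;>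
    ring

/-- the cross root element -/
def cr (i j : Fin n) (b : F) : Matrix.symplecticGroup (Fin n) F := siegel (b • single i j 1)

theorem cr_comm (i j : Fin n) (b : F) : cr i j b = cr j i b := by
  rw [cr, cr, ← MinDeg.siegel_transpose, Matrix.transpose_smul, Matrix.transpose_single]

theorem wi_cr (i j : Fin n) (h : i ≠ j) (b : F) :
    wi i * cr i j b = lev (tv i j h (-b)) * wi i := by
  apply Subtype.ext
  change fromBlocks _ _ _ _ * fromBlocks _ _ _ _ =
    fromBlocks (transvection i j (- -b))ᵀ 0 0 (transvection i j (-b)) * fromBlocks _ _ _ _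
  rw [fromBlocks_multiply, fromBlocks_multiply]
  refine fromBlocks_inj.2 ⟨?_, ?_, ?_, ?_⟩ <;>
    simp [sub_mul, mul_sub, add_mul, mul_add, Matrix.transpose_single, Matrix.transpose_add,
      Matrix.single_mul_single_same, Matrix.single_mul_single_of_ne, Matrix.smul_single, transvection, h, h.symm] <;>
    ext x y <;> simp [Matrix.single_apply, Matrix.one_apply] <;> split_ifs <;> simp_all <;>
    ring

theorem wi_tv (i j : Fin n) (h : i ≠ j) (b : F) :
    wi i * lev (tv i j h b) = cr i j b * wi i := by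
  apply Subtype.ext
  change fromBlocks _ _ _ _ * fromBlocks (transvection i j (-b))ᵀ 0 0 (transvection i j b) =
    fromBlocks _ _ _ _ * fromBlocks _ _ _ _
  rw [fromBlocks_multiply, fromBlocks_multiply]
  refine fromBlocks_inj.2 ⟨?_, ?_, ?_, ?_⟩ <;>
    simp [sub_mul, mul_sub, add_mul, mul_add, Matrix.transpose_single, Matrix.transpose_add,
      Matrix.single_mul_single_same, Matrix.single_mul_single_of_ne, Matrix.smul_single, transvection, h, h.symm] <;>
    ext x y <;> simp [Matrix.single_apply, Matrix.one_apply] <;> split_ifs <;> simp_all <;>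
    ring

/-- the root element of the `i`-th long root -/
def zi (i : Fin n) (t : F) : Matrix.symplecticGroup (Fin n) F := siegel ((t / 2) • single i i 1)

theorem wi_braid (h2 : (2 : F) ≠ 0) (i : Fin n) :
    wi i * zi i (-1 : F) * wi i = zi i 1 * wi i * zi i 1 := by
  have : NeZero (2 : F) := ⟨h2⟩
  apply Subtype.ext
  change fromBlocks _ _ _ _ * fromBlocks _ _ _ _ * fromBlocks _ _ _ _ =
    fromBlocks _ _ _ _ * fromBlocks _ _ _ _ * fromBlocks _ _ _ _
  rw [fromBlocks_multiply, fromBlocks_multiply, fromBlocks_multiply, fromBlocks_multiply]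
  refine fromBlocks_inj.2 ⟨?_, ?_, ?_, ?_⟩ <;>
    simp [sub_mul, mul_sub, add_mul, mul_add, Matrix.transpose_single,
      Matrix.single_mul_single_same, Matrix.smul_single] <;>
    ext x y <;> simp [Matrix.single_apply, Matrix.one_apply] <;> split_ifs <;> simp_all <;>
    field_simp <;> ring

theorem diag_update (i : Fin n) (a : F) :
    Matrix.diagonal (Function.update (1 : Fin n → F) i a) = 1 + single i i (a - 1) := by
  ext x y
  rcases eq_or_ne x y with rfl | hxy
  · rcases eq_or_ne x i with rfl | hx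
    · simp [Matrix.single_apply]
    · simp [hx, hx.symm, Matrix.single_apply]
  · simp [hxy, Matrix.single_apply, Matrix.one_apply]
    rintro rfl rfl
    exact absurd rfl hxy

theorem wi_torus (h2 : (2 : F) ≠ 0) (i : Fin n) (t : Fˣ) :
    lev (dg i t) * wi i * (zi i (-(t : F)⁻¹) * wi i) =
      zi i ((t⁻¹ : Fˣ) : F) * wi i * zi i (t : F) := by
  have : NeZero (2 : F) := ⟨h2⟩
  apply Subtype.ext
  change fromBlocks (Matrix.diagonal (Function.update 1 i ((t⁻¹ : Fˣ) : F)))ᵀ 0 0
      (Matrix.diagonal (Function.update 1 i (t : F))) * fromBlocks _ _ _ _ *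
        (fromBlocks _ _ _ _ * fromBlocks _ _ _ _) =
    fromBlocks _ _ _ _ * fromBlocks _ _ _ _ * fromBlocks _ _ _ _
  rw [diag_update, diag_update, fromBlocks_multiply, fromBlocks_multiply, fromBlocks_multiply, fromBlocks_multiply,
    fromBlocks_multiply]
  refine fromBlocks_inj.2 ⟨?_, ?_, ?_, ?_⟩ <;>
    simp [sub_mul, mul_sub, add_mul, mul_add, Matrix.transpose_single, Matrix.transpose_add,
      Matrix.single_mul_single_same, Matrix.smul_single] <;>
    ext x y <;> simp [Matrix.single_apply, Matrix.one_apply] <;> split_ifs <;> simp_all <;>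
    field_simp <;> ring

theorem wi_sq (i : Fin n) : wi (F := F) i * wi i = lev (dg i (-1)) := by
  apply Subtype.ext
  change fromBlocks _ _ _ _ * fromBlocks _ _ _ _ =
    fromBlocks (Matrix.diagonal (Function.update 1 i (((-1 : Fˣ)⁻¹ : Fˣ) : F)))ᵀ 0 0
      (Matrix.diagonal (Function.update 1 i ((-1 : Fˣ) : F)))
  rw [fromBlocks_multiply, diag_update, diag_update]
  refine fromBlocks_inj.2 ⟨?_, ?_, ?_, ?_⟩ <;>
    simp [sub_mul, mul_sub, Matrix.single_mul_single_same, Matrix.transpose_single,
      Matrix.transpose_add] <;>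
    ext x y <;> simp [Matrix.single_apply, Matrix.one_apply] <;> split_ifs <;> simp_all <;> ring

theorem siegel_wi_comm (i : Fin n) (M : Matrix (Fin n) (Fin n) F) (hr : ∀ k, M i k = 0)
    (hc : ∀ k, M k i = 0) : siegel M * wi i = wi i * siegel M := by
  apply Subtype.ext
  change fromBlocks _ _ _ _ * fromBlocks _ _ _ _ = fromBlocks _ _ _ _ * fromBlocks _ _ _ _
  rw [fromBlocks_multiply, fromBlocks_multiply]
  have e1 : single i i (1 : F) * M = 0 := by
    ext a b
    rcases eq_or_ne a i with rfl | ha <;> simp [*]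
  have e2 : M * single i i (1 : F) = 0 := by
    ext a b
    rcases eq_or_ne b i with rfl | hb <;> simp [*]
  have e3 : single i i (1 : F) * Mᵀ = 0 := by
    rw [← Matrix.transpose_inj, Matrix.transpose_mul, Matrix.transpose_transpose,
      Matrix.transpose_single, e2, Matrix.transpose_zero]
  have e4 : Mᵀ * single i i (1 : F) = 0 := by
    rw [← Matrix.transpose_inj, Matrix.transpose_mul, Matrix.transpose_transpose,
      Matrix.transpose_single, e1, Matrix.transpose_zero]
  simp [sub_mul, mul_sub, add_mul, mul_add, e1, e2, e3, e4]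
  abel

theorem lev_wi_comm (i : Fin n) (g : GL (Fin n) F) (h : g.1 * single i i (1 : F) = single i i 1)
    (h' : single i i (1 : F) * g.1 = single i i 1) : lev g * wi i = wi i * lev g := by
  apply Subtype.ext
  change fromBlocks (g⁻¹).1ᵀ 0 0 g.1 * fromBlocks _ _ _ _ =
    fromBlocks _ _ _ _ * fromBlocks (g⁻¹).1ᵀ 0 0 g.1
  have k1 : (g⁻¹).1 * single i i (1 : F) = single i i 1 := by
    conv_lhs => rw [← h]
    rw [← Matrix.mul_assoc, ← Units.val_mul, inv_mul_cancel, Units.val_one, Matrix.one_mul]
  have k2 : single i i (1 : F) * (g⁻¹).1 = single i i 1 := by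
    conv_lhs => rw [← h']
    rw [Matrix.mul_assoc, ← Units.val_mul, mul_inv_cancel, Units.val_one, Matrix.mul_one]
  have k3 : (g⁻¹).1ᵀ * single i i (1 : F) = single i i 1 := by
    rw [← Matrix.transpose_inj, Matrix.transpose_mul, Matrix.transpose_transpose,
      Matrix.transpose_single, k2]
  have k4 : single i i (1 : F) * (g⁻¹).1ᵀ = single i i 1 := by
    rw [← Matrix.transpose_inj, Matrix.transpose_mul, Matrix.transpose_transpose,
      Matrix.transpose_single, k1]
  rw [fromBlocks_multiply, fromBlocks_multiply]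
  simp [-Matrix.coe_units_inv, sub_mul, mul_sub, h, h', k3, k4]

theorem lev_tv_wi_comm (i a b : Fin n) (hab : a ≠ b) (ha : a ≠ i) (hb : b ≠ i) (c : F) :
    lev (tv a b hab c) * wi i = wi i * lev (tv a b hab c) := by
  apply lev_wi_comm
  · change transvection a b c * _ = _
    simp [transvection, add_mul, Matrix.single_mul_single_of_ne, hb]
  · change _ * transvection a b c = _
    simp [transvection, mul_add, Matrix.single_mul_single_of_ne, ha.symm]

theorem lev_dg_wi_comm (i a : Fin n) (ha : a ≠ i) (t : Fˣ) :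
    lev (dg a t) * wi i = wi i * lev (dg a t) := by
  apply lev_wi_comm
  · change Matrix.diagonal _ * _ = _
    ext x y
    rw [Matrix.diagonal_mul]
    by_cases hx : i = x ∧ i = y
    · obtain ⟨rfl, rfl⟩ := hx
      simp [ha.symm]
    · simp [Matrix.single_apply, hx]
  · change _ * Matrix.diagonal _ = _
    ext x y
    rw [Matrix.mul_diagonal]
    by_cases hx : i = x ∧ i = y
    · obtain ⟨rfl, rfl⟩ := hx
      simp [ha.symm]
    · simp [Matrix.single_apply, hx]

/-- matrices generated by transvections and coordinate scalings -/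
theorem gl_induction (P : GL (Fin n) F → Prop) (h1 : P 1) (hm : ∀ a b, P a → P b → P (a * b))
    (ht : ∀ i j (h : i ≠ j) c, P (tv i j h c)) (hd : ∀ i t, P (dg i t)) (g : GL (Fin n) F) :
    P g := by
  classical
  obtain ⟨L, L', D, hg⟩ := Matrix.Pivot.exists_list_transvec_mul_diagonal_mul_list_transvec g.1
  have hlist : ∀ M : List (TransvectionStruct (Fin n) F), ∃ a : GL (Fin n) F, P a ∧
      a.1 = (M.map TransvectionStruct.toMatrix).prod := by
    intro M
    induction M with
    | nil => exact ⟨1, h1, rfl⟩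
    | cons s M ih =>
      obtain ⟨a, ha, he⟩ := ih
      exact ⟨tv s.i s.j s.hij s.c * a, hm _ _ (ht _ _ _ _) ha, by
        rw [Units.val_mul, he, List.map_cons, List.prod_cons]; rfl⟩
  obtain ⟨a, ha, hae⟩ := hlist L
  obtain ⟨a', ha', hae'⟩ := hlist L'
  have hD : ∀ k, D k ≠ 0 := by
    intro k hk
    have hdet : g.1.det ≠ 0 := Matrix.det_ne_zero_of_right_inverse g.mul_inv
    rw [hg, Matrix.det_mul, Matrix.det_mul, Matrix.det_diagonal,
      Finset.prod_eq_zero (Finset.mem_univ k) hk] at hdet
    simp at hdet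
  have hdiag : ∀ s : Finset (Fin n), ∃ d : GL (Fin n) F, P d ∧
      d.1 = Matrix.diagonal fun k => if k ∈ s then D k else 1 := by
    intro s
    induction s using Finset.induction_on with
    | empty => exact ⟨1, h1, by simp⟩
    | insert k s hk ih =>
      obtain ⟨d, hd', he⟩ := ih
      refine ⟨dg k (Units.mk0 _ (hD k)) * d, hm _ _ (hd _ _) hd', ?_⟩
      rw [Units.val_mul, he]
      change Matrix.diagonal _ * _ = _
      rw [Matrix.diagonal_mul_diagonal]
      congr 1
      funext l
      rcases eq_or_ne l k with rfl | hl <;> simp [*]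
  obtain ⟨d, hd', hde⟩ := hdiag Finset.univ
  have : g = a * d * a' := Units.ext (by
    rw [Units.val_mul, Units.val_mul, hae, hae', hde]
    simpa using hg)
  rw [this]
  exact hm _ _ (hm _ _ ha hd') ha'

/-- a submonoid containing the radical, the Levi subgroup and `wi i₀` is everything -/
theorem eq_top_of_generators [Finite F] (h2 : (2 : F) ≠ 0) (i₀ : Fin n)
    (K : Subgroup (Matrix.symplecticGroup (Fin n) F)) (hU : ∀ M, siegel M ∈ K)
    (hL : ∀ g, lev g ∈ K) (hw : wi i₀ ∈ K) : K = ⊤ := by
  classical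
  have : NeZero (2 : F) := ⟨h2⟩
  let e : Fin n ⊕ Fin n → F := Pi.single (Sum.inl i₀) 1
  have hconjT : ∀ (A : Matrix.symplecticGroup (Fin n) F) (v : Fin n ⊕ Fin n → F) (c : F),
      A * ⟨Cfsg.sympTransvection n v c, Forms.sympTransvection_mem v c⟩ =
        ⟨Cfsg.sympTransvection n (A.1 *ᵥ v) c, Forms.sympTransvection_mem _ c⟩ * A := by
    intro A v c
    apply Subtype.ext
    apply Matrix.ext_of_mulVec_single
    intro s
    change (A.1 * Cfsg.sympTransvection n v c) *ᵥ _ = (Cfsg.sympTransvection n _ c * A.1) *ᵥ _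
    rw [← Matrix.mulVec_mulVec, ← Matrix.mulVec_mulVec, Forms.sympTransvection_mulVec,
      Forms.sympTransvection_mulVec, Matrix.mulVec_add, Matrix.mulVec_smul,
      Forms.mem_symplecticGroup_iff_sympForm.1 A.2]
  have hbase : ∀ c, (⟨Cfsg.sympTransvection n e c, Forms.sympTransvection_mem e c⟩ :
      Matrix.symplecticGroup (Fin n) F) ∈ K := by
    intro c
    convert hU ((c / 2) • Matrix.single i₀ i₀ 1) using 1
    apply Subtype.ext
    change Cfsg.sympTransvection n e c = fromBlocks 1 _ 0 1
    ext a b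
    rcases a with a | a <;> rcases b with b | b
    all_goals simp [Cfsg.sympTransvection, e, Matrix.vecMulVec_apply, Matrix.J, Pi.single_apply,
      Matrix.single_apply, Matrix.one_apply, Matrix.transpose_apply, eq_comm]
    rcases eq_or_ne i₀ a with rfl | ha <;> rcases eq_or_ne i₀ b with rfl | hb <;>
      simp [*, add_halves, Ne.symm]
  let O : Set (Fin n ⊕ Fin n → F) := {v | ∃ A ∈ K, A.1 *ᵥ e = v}
  have hstep : ∀ A ∈ K, ∀ v, v ∈ O → A.1 *ᵥ v ∈ O := by
    rintro A hA _ ⟨B, hB, rfl⟩
    exact ⟨A * B, K.mul_mem hA hB, by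
      change (A.1 * B.1) *ᵥ e = _
      rw [Matrix.mulVec_mulVec]⟩
  have hback : ∀ A ∈ K, ∀ v, A.1 *ᵥ v ∈ O → v ∈ O := by
    intro A hA v hv
    have := hstep A⁻¹ (K.inv_mem hA) _ hv
    rwa [Matrix.mulVec_mulVec, show (A⁻¹).1 * A.1 = (A⁻¹ * A).1 from rfl, inv_mul_cancel,
      show ((1 : Matrix.symplecticGroup (Fin n) F)).1 = 1 from rfl, Matrix.one_mulVec] at this
  have hmove : ∀ x : Fin n → F, x ≠ 0 → ∃ g : GL (Fin n) F, g.1 *ᵥ x = Pi.single i₀ 1 := by
    intro x hx
    obtain ⟨a, ha⟩ : ∃ a : GL (Fin n) F, a.1 *ᵥ Pi.single i₀ 1 = x := by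
      obtain ⟨b, hb⟩ := Function.ne_iff.1 hx
      rw [Pi.zero_apply] at hb
      rcases eq_or_ne b i₀ with rfl | hne
      · let m := (1 : Matrix (Fin n) (Fin n) F).updateCol b x
        have hm : m.det ≠ 0 := by
          simp only [m]
          rw [← Matrix.cramer_apply, Matrix.cramer_one]
          simpa using hb
        refine ⟨GeneralLinearGroup.mkOfDetNeZero m hm, ?_⟩
        change m *ᵥ _ = _
        rw [Matrix.mulVec_single_one]
        ext k
        simp [m, Matrix.updateCol_apply]
      · let m := (1 : Matrix (Fin n) (Fin n) F).updateCol b x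
        have hm : m.det ≠ 0 := by
          simp only [m]
          rw [← Matrix.cramer_apply, Matrix.cramer_one]
          simpa using hb
        let p : Matrix (Fin n) (Fin n) F := (Equiv.swap i₀ b).permMatrix F
        have hp : p.det ≠ 0 := by
          simp only [p, Matrix.det_permutation]
          simp [Equiv.Perm.sign_swap hne.symm]
        refine ⟨GeneralLinearGroup.mkOfDetNeZero (m * p) (by
          rw [Matrix.det_mul]; exact mul_ne_zero hm hp), ?_⟩
        change (m * p) *ᵥ _ = _
        rw [← Matrix.mulVec_mulVec, Matrix.permMatrix_mulVec]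
        have : (Pi.single i₀ (1 : F) ∘ ⇑(Equiv.swap i₀ b)) = Pi.single b 1 := by
          funext k
          simp [Pi.single_apply, Equiv.swap_apply_eq_iff]
        rw [this, Matrix.mulVec_single_one]
        ext k
        simp [m, Matrix.updateCol_apply]
    exact ⟨a⁻¹, by rw [← ha, Matrix.mulVec_mulVec, ← Units.val_mul, inv_mul_cancel, Units.val_one,
      Matrix.one_mulVec]⟩
  have hinr : Pi.single (Sum.inr i₀) (1 : F) ∈ O := by
    refine hback _ hw _ ⟨1, K.one_mem, ?_⟩
    change (1 : Matrix _ _ F) *ᵥ e = fromBlocks _ _ _ _ *ᵥ _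
    rw [Matrix.one_mulVec, Matrix.mulVec_single_one]
    ext k
    rcases k with k | k <;> simp [e, Pi.single_apply, Matrix.single_apply, Matrix.one_apply] <;>
      aesop
  have hall : ∀ v : Fin n ⊕ Fin n → F, v ≠ 0 → v ∈ O := by
    intro v hv
    by_cases hy : v ∘ Sum.inr = 0
    · have hx : v ∘ Sum.inl ≠ 0 := fun h => hv (funext fun s => by
        rcases s with s | s
        · exact congrFun h s
        · exact congrFun hy s)
      obtain ⟨g, hg⟩ := hmove _ hx
      obtain ⟨G', hG'⟩ : ∃ G' : GL (Fin n) F, (G'⁻¹).1ᵀ = g.1 := by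
        refine ⟨(GeneralLinearGroup.mkOfDetNeZero g.1ᵀ ?_)⁻¹, ?_⟩
        · rw [Matrix.det_transpose]; exact Matrix.det_ne_zero_of_right_inverse g.mul_inv
        · rw [inv_inv]; exact Matrix.transpose_transpose _
      refine hback _ (hL G') _ ⟨1, K.one_mem, ?_⟩
      change (1 : Matrix _ _ F) *ᵥ e = fromBlocks _ _ _ _ *ᵥ v
      rw [Matrix.one_mulVec, fromBlocks_mulVec, hy, hG', hg]
      ext k
      rcases k with k | k <;> simp [e, Pi.single_apply]
    · obtain ⟨g, hg⟩ := hmove _ hy
      refine hback _ (hL g) _ ?_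
      set u := (lev g).1 *ᵥ v with hu
      have hur : u ∘ Sum.inr = Pi.single i₀ 1 := by
        rw [hu]
        change (fromBlocks _ _ _ _ *ᵥ v) ∘ Sum.inr = _
        rw [fromBlocks_mulVec]
        simp [hg]
      -- a symmetric matrix sending the inr part to minus the inl part
      let a := u ∘ Sum.inl
      let M : Matrix (Fin n) (Fin n) F := vecMulVec (-a) (Pi.single i₀ 1) +
        (a i₀ / 2) • single i₀ i₀ 1
      refine hback _ (hU M) _ ?_
      suffices h : (siegel M).1 *ᵥ u = Pi.single (Sum.inr i₀) 1 by rw [h]; exact hinr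
      change fromBlocks 1 (M + Mᵀ) 0 1 *ᵥ u = _
      rw [fromBlocks_mulVec, hur]
      ext k
      rcases k with k | k
      · simp [M, a, Matrix.add_mulVec, Matrix.vecMulVec_apply, Matrix.single_apply]
        rcases eq_or_ne k i₀ with rfl | hk
        · simp only [if_true, and_self]
          simp only [Pi.single_eq_same]
          field_simp
          ring
        · simp [hk, hk.symm]
      · simp [Pi.single_apply, Matrix.one_apply]
  rw [eq_top_iff]
  intro g _
  have hg : g ∈ Forms.sympTransvectionClosure n F := by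
    rw [Forms.sympTransvectionClosure_eq_top (m := n) (F := F)]; exact Subgroup.mem_top g
  refine (Subgroup.closure_le K).2 ?_ hg
  rintro x ⟨w, c, hx⟩
  rw [show x = ⟨Cfsg.sympTransvection n w c, Forms.sympTransvection_mem w c⟩ from Subtype.ext hx]
  rcases eq_or_ne w 0 with rfl | hw0
  · rw [show (⟨Cfsg.sympTransvection n 0 c, Forms.sympTransvection_mem 0 c⟩ :
        Matrix.symplecticGroup (Fin n) F) = 1 from Subtype.ext (by simp [Cfsg.sympTransvection])]
    exact K.one_mem
  obtain ⟨A, hA, rfl⟩ := hall w hw0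
  have := K.mul_mem (K.mul_mem hA (hbase c)) (K.inv_mem hA)
  rwa [hconjT A e c, mul_assoc, mul_inv_cancel, mul_one] at this

end Cfsg.Agent.FGS75.Weil
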