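import Cfsg.Agent.FGS75.Weil.Slice
import Cfsg.Agent.SpWeil.Rep
import Cfsg.Agent.Char.Basic

/-!
The odd and even constituents of the Weil representation of `Sp_2n(q)`, seen from the Siegel radical.
-/

namespace Cfsg.Agent.FGS75.Weil

open Matrix Cfsg.Agent.Weights
open Cfsg.Agent.MinDeg (siegel siegel_add)

variable {F : Type*} [Field F] {k : ℕ}

theorem chi_neg (ψ : AddChar F ℂ) (x : Fin (k + 2) → F) : chi ψ (-x) = chi ψ x := by
  funext M
  simp [chi, Matrix.mulVec_neg]

theorem chi_zero (ψ : AddChar F ℂ) : chi ψ (0 : Fin (k + 2) → F) = fun _ => 1 := by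
  funext M
  simp [chi]

theorem isPrimitive_inv {ψ : AddChar F ℂ} (hψ : ψ.IsPrimitive) : ψ⁻¹.IsPrimitive := by
  intro a ha h
  refine hψ (neg_ne_zero.2 ha) (DFunLike.ext _ _ fun s => ?_)
  have := DFunLike.congr_fun h s
  rw [AddChar.mulShift_apply, AddChar.inv_apply] at this
  rw [AddChar.mulShift_apply, neg_mul]
  exact this

section Diagonal

variable [Fintype F] {ψ : AddChar F ℂ} (hψ : ψ.IsPrimitive)
variable {ι : Type*} (R : Matrix.symplecticGroup (Fin (k + 2)) F →* Module.End ℂ (ι → ℂ))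
variable (p : ι → Fin (k + 2) → F)
variable (hR : ∀ M f i, R (siegel M) f i = chi ψ (p i) M * f i)
include hR

theorem diag_rankOne : RankOne ψ R := by
  rintro Φ ⟨f, hf0, hf⟩
  obtain ⟨i, hi⟩ := Function.ne_iff.1 hf0
  refine ⟨1, p i, fun M => ?_⟩
  have := congrFun (hf M) i
  rw [hR, Pi.smul_apply, smul_eq_mul] at this
  rw [one_mul]
  exact (mul_right_cancel₀ hi this).symm

include hψ in
theorem diag_oneDim (hp : ∀ i j, p j = p i ∨ p j = -p i → i = j) : OneDim ψ R := by
  classical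
  intro x _ w w' hw hw' hw0
  obtain ⟨i, hi⟩ := Function.ne_iff.1 hw0
  rw [Pi.zero_apply] at hi
  have hsupp : ∀ u : ι → ℂ, Wt ψ R x u → ∀ j, u j ≠ 0 → x = p j ∨ x = -p j := fun u hu j hj =>
    chi_inj hψ fun M => by
      have := congrFun (hu M) j
      rw [hR, Pi.smul_apply, smul_eq_mul] at this
      exact mul_right_cancel₀ hj this
  refine ⟨w' i / w i, funext fun j => ?_⟩
  rw [Pi.smul_apply, smul_eq_mul]
  rcases eq_or_ne j i with rfl | hj
  · rw [div_mul_cancel₀ _ hi]
  have hz : ∀ u : ι → ℂ, Wt ψ R x u → u j = 0 := fun u hu => by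
    by_contra hne
    refine hj (hp _ _ ?_).symm
    rcases hsupp w hw i hi with e | e <;> rcases hsupp u hu j hne with e' | e'
    · exact Or.inl (e'.symm.trans e)
    · exact Or.inr (neg_eq_iff_eq_neg.1 (e'.symm.trans e))
    · exact Or.inr (e'.symm.trans e)
    · exact Or.inl (neg_injective (e'.symm.trans e))
  rw [hz w' hw', hz w hw, mul_zero]

theorem diag_wt [DecidableEq ι] (i : ι) {x : Fin (k + 2) → F} (hx : p i = x ∨ p i = -x) :
    Wt ψ R x (Pi.single i 1) := by
  intro M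
  funext j
  rw [hR, Pi.smul_apply, smul_eq_mul]
  rcases eq_or_ne j i with rfl | hj
  · rcases hx with e | e <;> rw [e]
    rw [chi_neg]
  · simp [hj]

include hψ in
theorem diag_fixed (f : ι → ℂ) (hf : ∀ M, R (siegel M) f = f) (i : ι) (hi : p i ≠ 0) : f i = 0 := by
  by_contra hne
  refine hi ((chi_inj hψ (x := p i) (y := 0) fun M => ?_).elim Eq.symm fun e => neg_eq_zero.1 e.symm)
  have := congrFun (hf M) i
  rw [hR] at this
  rw [chi_zero]
  exact (mul_left_eq_self₀.1 this).resolve_right hne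

omit hR in
theorem diag_trace [Fintype ι] [DecidableEq ι] (A : Matrix ι ι ℂ) (d : ι → ℂ)
    (hA : A = Matrix.diagonal d) :
    LinearMap.trace ℂ (ι → ℂ) (Matrix.toLinAlgEquiv' A) = ∑ i, d i := by
  rw [hA, show Matrix.toLinAlgEquiv' (Matrix.diagonal d) = Matrix.toLin' (Matrix.diagonal d) from rfl,
    Matrix.trace_toLin'_eq, Matrix.trace_diagonal]

end Diagonal

/-- a representation too small to have two non-trivial halves is irreducible -/
theorem irreducible_of_small [Fintype F] (hodd : Odd (Fintype.card F)) {V : Type*} [AddCommGroup V]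
    [Module ℂ V] [FiniteDimensional ℂ V]
    (R : Matrix.symplecticGroup (Fin (k + 2)) F →* Module.End ℂ V)
    (hdim : Module.finrank ℂ V < 2 * ((Fintype.card F ^ (k + 2) - 1) / 2))
    (hfix : ∀ v, (∀ g, R g v = v) → v = 0)
    (U : Submodule ℂ V) (hU : ∀ g, ∀ u ∈ U, R g u ∈ U) : U = ⊥ ∨ U = ⊤ := by
  let P : Subrepresentation (show Representation ℂ _ V from R) := ⟨U, fun g v hv => hU g v hv⟩
  obtain ⟨Q, hQ⟩ := Char.exists_isCompl_subrep _ P
  have key : ∀ P : Submodule ℂ V, (∀ g, ∀ u ∈ P, R g u ∈ P) → P = ⊥ ∨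
      (Fintype.card F ^ (k + 2) - 1) / 2 ≤ Module.finrank ℂ P := by
    intro P hP
    let R' : Matrix.symplecticGroup (Fin (k + 2)) F →* Module.End ℂ P :=
      { toFun := fun g => (R g).restrict (hP g)
        map_one' := LinearMap.ext fun v => Subtype.ext (by simp)
        map_mul' := fun a b => LinearMap.ext fun v => Subtype.ext (by simp) }
    by_cases hS : ∀ M, R' (siegel M) = 1
    · have hall := MinDeg.sp_trivial_of_siegel (by omega) (MinDeg.two_ne_zero_of_odd_card hodd) R' hS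
      refine Or.inl ((Submodule.eq_bot_iff _).2 fun v hv => hfix v fun g => ?_)
      exact congrArg Subtype.val (LinearMap.congr_fun (hall g) ⟨v, hv⟩)
    · obtain ⟨M, hM⟩ := not_forall.1 hS
      exact Or.inr (MinDeg.sp_siegel_bound hodd (by omega) R' M hM)
  rcases key U hU with h | h
  · exact Or.inl h
  rcases key Q.toSubmodule (fun g u hu => Q.apply_mem_toSubmodule g hu) with h' | h'
  · right
    have := hQ.sup_eq_top
    rw [h', sup_bot_eq] at this
    exact this
  · have : Module.finrank ℂ U + Module.finrank ℂ Q.toSubmodule = Module.finrank ℂ V :=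
      Submodule.finrank_add_eq_of_isCompl hQ
    omega

variable [Fintype F] [DecidableEq F] {ψ : AddChar F ℂ} (hψ : ψ.IsPrimitive) (h2 : (2 : F) ≠ 0)
variable {N : ℕ} (H : SpWeil.Half F (k + 2) N)

/-- the odd constituent -/
noncomputable def wo : Matrix.symplecticGroup (Fin (k + 2)) F →* Module.End ℂ (Fin N → ℂ) :=
  SpWeil.weilOdd H h2 (isPrimitive_inv hψ)

/-- the even constituent -/
noncomputable def we :
    Matrix.symplecticGroup (Fin (k + 2)) F →* Module.End ℂ (Option (Fin N) → ℂ) where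
  toFun g := Matrix.toLinAlgEquiv' (H.evenPart (SpWeil.weil H h2 (isPrimitive_inv hψ) g))
  map_one' := by rw [map_one, H.evenPart_one, map_one]
  map_mul' g g' := by
    rw [map_mul, H.evenPart_mul _ _ (SpWeil.weil_comm H h2 (isPrimitive_inv hψ) g'), map_mul]

theorem oddPart_diagonal (d : (Fin (k + 2) → F) → ℂ) :
    H.oddPart (Matrix.diagonal d) = Matrix.diagonal (d ∘ H.pt) := by
  ext i j
  rw [SpWeil.Half.oddPart, Matrix.submatrix_apply, Matrix.diagonal_mul, id, H.oddIncl_pt]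
  rcases eq_or_ne i j with rfl | h <;> simp [*]

theorem evenPart_diagonal (d : (Fin (k + 2) → F) → ℂ) :
    H.evenPart (Matrix.diagonal d) = Matrix.diagonal (d ∘ H.ept) := by
  ext i j
  rw [SpWeil.Half.evenPart, Matrix.submatrix_apply, Matrix.diagonal_mul, id, H.evenIncl_ept]
  rcases eq_or_ne i j with rfl | h <;> simp [*]

include h2 in
omit hψ in
theorem oddPart_parity : H.oddPart (SpWeil.parity F (k + 2)) = -1 := by
  ext i j
  rw [SpWeil.Half.oddPart, H.neg_oddIncl h2, Matrix.submatrix_apply, Matrix.neg_apply, id,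
    H.oddIncl_pt, Matrix.neg_apply, Matrix.one_apply]

theorem evenPart_parity : H.evenPart (SpWeil.parity F (k + 2)) = 1 := by
  ext i j
  rw [SpWeil.Half.evenPart, H.neg_evenIncl, Matrix.submatrix_apply, id, H.evenIncl_ept,
    Matrix.one_apply]

/-- the normalisation makes the intertwiner canonical -/
theorem weil_eq_norm (hφ : ψ.IsPrimitive) (g : Matrix.symplecticGroup (Fin (k + 2)) F)
    (D : Matrix (Fin (k + 2) → F) (Fin (k + 2) → F) ℂ)
    (hD : SpWeil.Inter ψ (fun v => g.1 *ᵥ v) D) (hDu : IsUnit D) :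
    SpWeil.weil H h2 hφ g = H.norm D := by
  obtain ⟨c, hc, he⟩ := SpWeil.interOf_smul h2 hφ g D hD hDu
  change H.norm (SpWeil.interOf h2 hφ g) = _
  rw [he, H.norm_smul hc]

theorem weil_siegel (M : Matrix (Fin (k + 2)) (Fin (k + 2)) F) :
    SpWeil.weil H h2 (isPrimitive_inv hψ) (siegel M) = Matrix.diagonal fun x => chi ψ x M := by
  have hD : SpWeil.siegelOp ψ⁻¹ M = Matrix.diagonal fun x => chi ψ x M := by
    rw [SpWeil.siegelOp]
    congr 1
    funext x
    rw [AddChar.inv_apply, neg_neg]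
    rfl
  have hu : IsUnit (SpWeil.siegelOp ψ⁻¹ M) := by
    rw [SpWeil.siegelOp, Matrix.isUnit_diagonal, Pi.isUnit_iff]
    exact fun x => AddChar.val_isUnit _ _
  rw [weil_eq_norm h2 H (isPrimitive_inv hψ) (siegel M) _ (SpWeil.inter_siegelOp h2 _ M) hu, hD,
    SpWeil.Half.norm, oddPart_diagonal, evenPart_diagonal, Matrix.det_diagonal, Matrix.det_diagonal,
    Fintype.prod_option]
  simp only [Function.comp_apply, SpWeil.Half.ept, chi_zero, one_mul]
  rw [div_self, one_smul]
  exact Finset.prod_ne_zero_iff.2 fun i _ => (AddChar.val_isUnit ψ _).ne_zero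

theorem wo_siegel (M : Matrix (Fin (k + 2)) (Fin (k + 2)) F) (f : Fin N → ℂ) (i : Fin N) :
    wo hψ h2 H (siegel M) f i = chi ψ (H.pt i) M * f i := by
  change Matrix.toLinAlgEquiv' (H.oddPart (SpWeil.weil H h2 _ (siegel M))) f i = _
  rw [weil_siegel hψ, oddPart_diagonal, Matrix.toLinAlgEquiv'_apply, Matrix.mulVec_diagonal]
  rfl

theorem we_siegel (M : Matrix (Fin (k + 2)) (Fin (k + 2)) F) (f : Option (Fin N) → ℂ)
    (i : Option (Fin N)) : we hψ h2 H (siegel M) f i = chi ψ (H.ept i) M * f i := by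
  change Matrix.toLinAlgEquiv' (H.evenPart (SpWeil.weil H h2 _ (siegel M))) f i = _
  rw [weil_siegel hψ, evenPart_diagonal, Matrix.toLinAlgEquiv'_apply, Matrix.mulVec_diagonal]
  rfl

theorem trace_wo_siegel (M : Matrix (Fin (k + 2)) (Fin (k + 2)) F) :
    LinearMap.trace ℂ _ (wo hψ h2 H (siegel M)) = ∑ i, chi ψ (H.pt i) M := by
  refine diag_trace (H.oddPart (SpWeil.weil H h2 (isPrimitive_inv hψ) (siegel M))) _ ?_
  rw [weil_siegel hψ, oddPart_diagonal]
  rfl

theorem trace_we_siegel (M : Matrix (Fin (k + 2)) (Fin (k + 2)) F) :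
    LinearMap.trace ℂ _ (we hψ h2 H (siegel M)) = 1 + ∑ i, chi ψ (H.pt i) M := by
  refine (diag_trace (H.evenPart (SpWeil.weil H h2 (isPrimitive_inv hψ) (siegel M)))
    ((fun x => chi ψ x M) ∘ H.ept) ?_).trans ?_
  · rw [weil_siegel hψ, evenPart_diagonal]
  · rw [Fintype.sum_option]
    simp only [Function.comp_apply, SpWeil.Half.ept, chi_zero]

theorem weil_neg_one :
    SpWeil.weil H h2 (isPrimitive_inv hψ) (lev (-1 : GL (Fin (k + 2)) F)) =
      (-1 : ℂ) ^ N • SpWeil.parity F (k + 2) := by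
  have hval : (lev (-1 : GL (Fin (k + 2)) F)).1 = -1 := by
    change fromBlocks ((-1 : GL (Fin (k + 2)) F)⁻¹).1ᵀ 0 0 ((-1 : GL (Fin (k + 2)) F)).1 = _
    rw [← fromBlocks_one, fromBlocks_neg]
    simp
  have hD : SpWeil.Inter ψ⁻¹ (fun v => (lev (-1 : GL (Fin (k + 2)) F)).1 *ᵥ v)
      (SpWeil.parity F (k + 2)) := by
    simp only [hval, Matrix.neg_mulVec, Matrix.one_mulVec]
    exact SpWeil.inter_parity _
  rw [weil_eq_norm h2 H (isPrimitive_inv hψ) _ _ hD
    ⟨⟨_, _, SpWeil.parity_mul_parity, SpWeil.parity_mul_parity⟩, rfl⟩, SpWeil.Half.norm,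
    oddPart_parity h2 H, evenPart_parity, Matrix.det_one, div_one, Matrix.det_neg, Matrix.det_one,
    mul_one, Fintype.card_fin]

theorem wo_neg_one :
    wo hψ h2 H (lev (-1 : GL (Fin (k + 2)) F)) = (-(-1 : ℂ) ^ N) • 1 := by
  change Matrix.toLinAlgEquiv' (H.oddPart (SpWeil.weil H h2 _ _)) = _
  rw [weil_neg_one hψ, H.oddPart_smul, oddPart_parity h2 H, map_smul, map_neg, map_one, smul_neg,
    ← neg_smul]

theorem we_neg_one : we hψ h2 H (lev (-1 : GL (Fin (k + 2)) F)) = ((-1 : ℂ) ^ N) • 1 := by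
  change Matrix.toLinAlgEquiv' (H.evenPart (SpWeil.weil H h2 _ _)) = _
  rw [weil_neg_one hψ, H.evenPart_smul, evenPart_parity, map_smul, map_one]

/-- the constituent of a given central sign -/
structure IsWeilPart {V : Type*} [AddCommGroup V] [Module ℂ V] (ψ : AddChar F ℂ)
    (R : Matrix.symplecticGroup (Fin (k + 2)) F →* Module.End ℂ V) : Prop where
  rankOne : RankOne ψ R
  oneDim : OneDim ψ R
  base : ∃ v, v ≠ 0 ∧ Wt ψ R (Pi.single 0 1 : Fin (k + 2) → F) v
  irr : ∀ U : Submodule ℂ V, (∀ g, ∀ u ∈ U, R g u ∈ U) → U = ⊥ ∨ U = ⊤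

theorem pt_unique (i j : Fin N) (h : H.pt j = H.pt i ∨ H.pt j = -H.pt i) : i = j := by
  rcases h with h | h
  · exact (H.inj h).symm
  · exact absurd h (H.ne_neg j i)

theorem ept_unique (i j : Option (Fin N)) (h : H.ept j = H.ept i ∨ H.ept j = -H.ept i) : i = j := by
  rcases i with _ | i <;> rcases j with _ | j
  · rfl
  · simp [SpWeil.Half.ept, H.pt_ne_zero] at h
  · simp [SpWeil.Half.ept, (H.pt_ne_zero i).symm, eq_comm (a := (0 : Fin (k + 2) → F))] at h
    exact absurd h (H.pt_ne_zero i)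
  · exact congrArg some (pt_unique H i j h)

theorem base_pt : ∃ i, H.pt i = (Pi.single 0 1 : Fin (k + 2) → F) ∨
    H.pt i = -(Pi.single 0 1 : Fin (k + 2) → F) := by
  obtain ⟨i, h | h⟩ := H.cover (Pi.single 0 1) (fun h => one_ne_zero (α := F) (by
    simpa using congrFun h 0))
  · exact ⟨i, Or.inl h.symm⟩
  · exact ⟨i, Or.inr (by rw [h, neg_neg])⟩

variable (hodd : Odd (Fintype.card F)) (hN : Fintype.card F ^ (k + 2) = 2 * N + 1) (hN2 : 2 ≤ N)
include hodd hN hN2

theorem wo_isWeilPart : IsWeilPart ψ (wo hψ h2 H) := by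
  obtain ⟨i, hi⟩ := base_pt H
  refine ⟨diag_rankOne _ _ (wo_siegel hψ h2 H), diag_oneDim hψ _ _ (wo_siegel hψ h2 H) (pt_unique H),
    ⟨Pi.single i 1, fun h => one_ne_zero (α := ℂ) (by simpa using congrFun h i),
      diag_wt _ _ (wo_siegel hψ h2 H) i hi⟩,
    irreducible_of_small hodd _ ?_ fun f hf => funext fun j =>
      diag_fixed hψ _ _ (wo_siegel hψ h2 H) f (fun M => hf _) j (H.pt_ne_zero j)⟩
  rw [Module.finrank_fin_fun]
  omega

theorem we_isWeilPart : IsWeilPart ψ (we hψ h2 H) := by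
  obtain ⟨i, hi⟩ := base_pt H
  refine ⟨diag_rankOne _ _ (we_siegel hψ h2 H), diag_oneDim hψ _ _ (we_siegel hψ h2 H) (ept_unique H),
    ⟨Pi.single (some i) 1, fun h => one_ne_zero (α := ℂ) (by simpa using congrFun h (some i)),
      diag_wt _ _ (we_siegel hψ h2 H) (some i) hi⟩,
    irreducible_of_small hodd _ ?_ fun f hf => ?_⟩
  · rw [Module.finrank_pi, Fintype.card_option, Fintype.card_fin]
    omega
  have hzero : ∀ j, f (some j) = 0 := fun j =>
    diag_fixed hψ _ _ (we_siegel hψ h2 H) f (fun M => hf _) (some j) (H.pt_ne_zero j)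
  -- what is left is supported at the origin, which `wi` moves
  set φ := ψ⁻¹
  set g : Matrix.symplecticGroup (Fin (k + 2)) F := wi 0
  set W := SpWeil.weil H h2 (isPrimitive_inv hψ) g
  set E := H.evenIncl *ᵥ f with hE
  have hW : W *ᵥ E = E := by
    have h : SpWeil.parity F (k + 2) * (W * H.evenIncl) = W * H.evenIncl := by
      rw [← Matrix.mul_assoc, ← SpWeil.weil_comm, Matrix.mul_assoc, H.neg_evenIncl]
    have hf' : H.evenPart W *ᵥ f = f := hf g
    rw [Matrix.mulVec_mulVec, ← H.incl_restrict_even _ h, ← Matrix.mulVec_mulVec]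
    change H.evenIncl *ᵥ (H.evenPart W *ᵥ f) = _
    rw [hf']
  have hEval : ∀ x, E x = if x = 0 then f none else 0 := by
    intro x
    simp only [hE, Matrix.mulVec, dotProduct, Fintype.sum_option, hzero, mul_zero, Finset.sum_const_zero,
      add_zero, SpWeil.Half.evenIncl, Matrix.of_apply, SpWeil.Half.ept, neg_zero]
    split_ifs <;> simp
  set v : Fin (k + 2) ⊕ Fin (k + 2) → F := Pi.single (Sum.inl 0) 1
  have hvr : v ∘ Sum.inr = 0 := by funext a; simp [v]
  have hwr : (g.1 *ᵥ v) ∘ Sum.inr ≠ 0 := by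
    intro h
    have := congrFun h 0
    change (fromBlocks _ _ _ _ *ᵥ v) (Sum.inr 0) = 0 at this
    simp [v, Matrix.mulVec_single_one] at this
  have hfixv : SpWeil.weyl φ v *ᵥ E = E := by
    funext x
    simp only [Matrix.mulVec, dotProduct, hEval, SpWeil.weyl_apply, hvr, add_zero]
    rcases eq_or_ne x 0 with rfl | hx
    · simp
    · simp [hx, hx.symm]
  obtain ⟨c, hc, he⟩ := SpWeil.weil_apply H h2 (isPrimitive_inv hψ) g _
    (SpWeil.interOf_spec h2 (isPrimitive_inv hψ) g).1 (SpWeil.interOf_spec h2 (isPrimitive_inv hψ) g).2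
  have hint := (SpWeil.interOf_spec h2 (isPrimitive_inv hψ) g).1.smul c v
  rw [← he] at hint
  have := congrFun (congrArg (fun A => A *ᵥ E) hint) 0
  simp only [← Matrix.mulVec_mulVec] at this
  rw [show SpWeil.weyl ψ⁻¹ v *ᵥ E = E from hfixv] at this
  rw [show SpWeil.weil H h2 (isPrimitive_inv hψ) g *ᵥ E = E from hW, hEval, if_pos rfl] at this
  have h0 : f none = 0 := by
    rw [this]
    simp only [Matrix.mulVec, dotProduct, hEval, SpWeil.weyl_apply, zero_add]
    refine Finset.sum_eq_zero fun y _ => ?_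
    rcases eq_or_ne y 0 with rfl | hy
    · rw [if_neg (fun h => hwr h.symm), zero_mul]
    · simp [hy]
  funext o
  rcases o with _ | j
  · exact h0
  · exact hzero j

end Cfsg.Agent.FGS75.Weil
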