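import Cfsg.Agent.FGS75.Weil.Slice
import Cfsg.Agent.SpWeil.Split

/-!
Two irreducible representations of `Sp_2n(q)` with rank-one Siegel spectrum, the same rank-one class
and the same central sign are isomorphic.
-/

namespace Cfsg.Agent.FGS75.Weil

open Matrix Cfsg.Agent.Weights
open Cfsg.Agent.MinDeg (siegel siegel_add)

variable {F : Type*} [Field F] {k : ℕ}

/-- block embedding fixing the first coordinate -/
def blk (M : Matrix (Fin (k + 1)) (Fin (k + 1)) F) : Matrix (Fin (k + 2)) (Fin (k + 2)) F :=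
  Matrix.of (Fin.cons (Pi.single 0 1) fun a => Fin.cons 0 (M a))

theorem blk_mul (A B : Matrix (Fin (k + 1)) (Fin (k + 1)) F) : blk (A * B) = blk A * blk B := by
  ext a b
  rw [Matrix.mul_apply, Fin.sum_univ_succ]
  refine Fin.cases ?_ (fun a => ?_) a <;> refine Fin.cases ?_ (fun b => ?_) b <;>
    simp [blk, Matrix.mul_apply, Fin.succ_ne_zero]

theorem blk_one : blk (1 : Matrix (Fin (k + 1)) (Fin (k + 1)) F) = 1 := by
  ext a b
  refine Fin.cases ?_ (fun a => ?_) a <;> refine Fin.cases ?_ (fun b => ?_) b <;>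
    simp [blk, Matrix.one_apply, Fin.succ_ne_zero, (Fin.succ_ne_zero _).symm]

theorem blk_transvection (i j : Fin (k + 1)) (c : F) :
    blk (transvection i j c) = transvection i.succ j.succ c := by
  ext a b
  refine Fin.cases ?_ (fun a => ?_) a <;> refine Fin.cases ?_ (fun b => ?_) b <;>
    simp [blk, transvection, Matrix.one_apply, Matrix.single_apply, Fin.succ_ne_zero,
      (Fin.succ_ne_zero _).symm]

theorem blk_diagonal (i : Fin (k + 1)) (a : F) :
    blk (Matrix.diagonal (Function.update 1 i a)) = Matrix.diagonal (Function.update 1 i.succ a) := by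
  ext x y
  refine Fin.cases ?_ (fun x => ?_) x <;> refine Fin.cases ?_ (fun y => ?_) y <;>
    simp [blk, Matrix.diagonal_apply, Function.update_apply, Fin.succ_ne_zero,
      (Fin.succ_ne_zero _).symm]

/-- induction over the stabiliser of the first basis vector -/
theorem stab_induction (P : GL (Fin (k + 2)) F → Prop) (h1 : P 1)
    (hm : ∀ a b, P a → P b → P (a * b))
    (ht : ∀ i j (h : i ≠ j) c, j ≠ 0 → P (tv i j h c)) (hd : ∀ i t, i ≠ 0 → P (dg i t))
    (g : GL (Fin (k + 2)) F) (hg : g.1 *ᵥ Pi.single 0 1 = Pi.single 0 1) : P g := by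
  classical
  have hcol : ∀ a, g.1 a 0 = if a = 0 then 1 else 0 := fun a => by
    have := congrFun hg a
    rw [Matrix.mulVec_single_one] at this
    simpa [Pi.single_apply] using this
  let A : Matrix (Fin (k + 1)) (Fin (k + 1)) F := g.1.submatrix Fin.succ Fin.succ
  have hA : A.det ≠ 0 := by
    have h := Matrix.det_ne_zero_of_right_inverse g.mul_inv
    rw [Matrix.det_succ_column_zero, Fin.sum_univ_succ] at h
    simpa [hcol, Fin.succ_ne_zero, A, Fin.succAbove_zero] using h
  have hblk : ∀ B : GL (Fin (k + 1)) F, ∃ b : GL (Fin (k + 2)) F, b.1 = blk B.1 ∧ P b := by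
    intro B
    induction B using gl_induction with
    | h1 => exact ⟨1, by rw [Units.val_one, Units.val_one, blk_one], h1⟩
    | hm a b ha hb =>
      obtain ⟨x, hx, hx'⟩ := ha
      obtain ⟨y, hy, hy'⟩ := hb
      exact ⟨x * y, by rw [Units.val_mul, Units.val_mul, blk_mul, hx, hy], hm _ _ hx' hy'⟩
    | ht i j h c =>
      exact ⟨tv i.succ j.succ (fun e => h (Fin.succ_injective _ e)) c, (blk_transvection i j c).symm,
        ht _ _ _ _ (Fin.succ_ne_zero _)⟩
    | hd i t =>
      exact ⟨dg i.succ t, (blk_diagonal i (t : F)).symm, hd _ _ (Fin.succ_ne_zero _)⟩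
  obtain ⟨b, hb, hbP⟩ := hblk (GeneralLinearGroup.mkOfDetNeZero A hA)
  have hrow : ∀ s : Finset (Fin (k + 1)), ∃ r : GL (Fin (k + 2)) F, P r ∧
      r.1 = 1 + ∑ c ∈ s, single 0 c.succ (g.1 0 c.succ) := by
    intro s
    induction s using Finset.induction_on with
    | empty => exact ⟨1, h1, by simp⟩
    | insert c s hc ih =>
      obtain ⟨r, hr, he⟩ := ih
      refine ⟨tv 0 c.succ (Fin.succ_ne_zero c).symm (g.1 0 c.succ) * r,
        hm _ _ (ht _ _ _ _ (Fin.succ_ne_zero c)) hr, ?_⟩
      rw [Units.val_mul, he]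
      change transvection _ _ _ * _ = _
      rw [Finset.sum_insert hc, transvection, add_mul, one_mul, mul_add, mul_one, Finset.mul_sum,
        Finset.sum_eq_zero (s := s) (f := fun d => single 0 c.succ _ * single 0 d.succ _)
          fun d _ => by rw [Matrix.single_mul_single_of_ne]; exact Fin.succ_ne_zero c]
      abel
  obtain ⟨r, hr, he⟩ := hrow Finset.univ
  have : g = b * r := by
    apply Units.ext
    rw [Units.val_mul, hb, he, mul_add, mul_one]
    ext a c
    rw [Matrix.add_apply, Matrix.mul_apply, Fin.sum_univ_succ]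
    refine Fin.cases ?_ (fun a => ?_) a <;> refine Fin.cases ?_ (fun c => ?_) c <;>
      simp [blk, A, GeneralLinearGroup.mkOfDetNeZero, Matrix.sum_apply, Matrix.single_apply, hcol,
        Fin.succ_ne_zero, (Fin.succ_ne_zero _).symm]
  rw [this]
  exact hm _ _ hbP hr

theorem exists_move (x : Fin (k + 2) → F) (hx : x ≠ 0) :
    ∃ g : GL (Fin (k + 2)) F, g.1 *ᵥ Pi.single 0 1 = x := by
  obtain ⟨a, ha⟩ := exists_sl_apply_single (F := F) (k := k + 2) (by omega) x hx
  exact ⟨GeneralLinearGroup.mkOfDetNeZero a.1 (by rw [a.2]; exact one_ne_zero), ha⟩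

variable {V W : Type*} [AddCommGroup V] [Module ℂ V] [AddCommGroup W] [Module ℂ W]

local notation "o" => (Pi.single 0 1 : Fin (k + 2) → F)

theorem single_ne_zero' : o ≠ 0 := fun h => one_ne_zero (α := F) (by simpa using congrFun h 0)

variable {ψ : AddChar F ℂ} {R : Matrix.symplecticGroup (Fin (k + 2)) F →* Module.End ℂ V}
  {S : Matrix.symplecticGroup (Fin (k + 2)) F →* Module.End ℂ W}
variable [Fintype F] (hψ : ψ.IsPrimitive) (h2 : (2 : F) ≠ 0)
  (hR : RankOne ψ R) (hS : RankOne ψ S) (h1 : OneDim ψ S)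

include hψ h2 hR hS h1 in
/-- the stabiliser of the base vector acts on a pair of base weight vectors by a common scalar -/
theorem stab_scalar (g : GL (Fin (k + 2)) F) (hg : g.1 *ᵥ o = o) (v : V) (v' : W)
    (hv : Wt ψ R o v) (hv' : Wt ψ S o v') (h0 : v' ≠ 0) :
    ∃ c : ℂ, pr R S (lev g) (v, v') = c • (v, v') := by
  revert v v'
  refine (stab_induction (fun g => g.1 *ᵥ o = o ∧ ∀ (v : V) (v' : W), Wt ψ R o v →
    Wt ψ S o v' → v' ≠ 0 → ∃ c : ℂ, pr R S (lev g) (v, v') = c • (v, v')) ?_ ?_ ?_ ?_ g hg).2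
  · exact ⟨by rw [Units.val_one, Matrix.one_mulVec], fun v v' _ _ _ =>
      ⟨1, by rw [map_one, map_one, one_smul]; rfl⟩⟩
  · rintro a b ⟨ha0, ha⟩ ⟨hb0, hb⟩
    refine ⟨by rw [Units.val_mul, ← Matrix.mulVec_mulVec, hb0, ha0], fun v v' hv hv' h0 => ?_⟩
    obtain ⟨c, hc⟩ := hb v v' hv hv' h0
    obtain ⟨d, hd⟩ := ha v v' hv hv' h0
    exact ⟨c * d, by rw [map_mul, apply_mul, hc, map_smul, hd, smul_smul]⟩
  all_goals
    have hdg : ∀ (i : Fin (k + 2)) (t : Fˣ), i ≠ 0 → ∀ (v : V) (v' : W), Wt ψ R o v →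
        Wt ψ S o v' → v' ≠ 0 → ∃ c : ℂ, pr R S (lev (dg i t)) (v, v') = c • (v, v') := by
      intro i t hi v v' hv hv' h0
      have hw : Wt ψ S o (S (lev (dg i t)) v') := by
        have := hv'.lev (dg i t)
        rwa [dg_mulVec_single i 0 t hi.symm] at this
      obtain ⟨c, hc⟩ := h1 _ single_ne_zero' _ _ hv' hw h0
      have hs := scalar_of_sliceStab (hij := hi) hψ h2 (by simp) hv hv' h0
        (dg_sliceStab hψ h2 (by simp) hv hv' h0 hR hS h1 t) hc
      exact ⟨c, Prod.ext hs hc⟩
  · intro i j h c hj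
    have hfix : ∀ e : F, (tv i j h e).1 *ᵥ o = o := fun e => by
      rw [tv_mulVec]; simp [hj.symm]
    refine ⟨hfix c, fun v v' hv hv' h0 => ⟨1, ?_⟩⟩
    have htwo : ((Units.mk0 (2 : F) h2 : Fˣ) : F) = 2 := rfl
    -- a scaling that doubles `c`, trivial at the base vector
    obtain ⟨D, hD, hDc⟩ : ∃ D : GL (Fin (k + 2)) F, (∀ (w : V) (w' : W), Wt ψ R o w →
        Wt ψ S o w' → w' ≠ 0 → ∃ a : ℂ, pr R S (lev D) (w, w') = a • (w, w')) ∧
        D * tv i j h c * D⁻¹ = tv i j h c * tv i j h c := by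
      rw [tv_mul, ← two_mul, ← htwo]
      by_cases hi : i = 0
      · refine ⟨(dg j (Units.mk0 (2 : F) h2))⁻¹, fun w w' hw hw' h' => ?_, ?_⟩
        · obtain ⟨a, ha⟩ := hdg j (Units.mk0 (2 : F) h2) hj w w' hw hw' h'
          have ha0 : a ≠ 0 := fun e => h' (by
            have := congrArg (fun m => (pr R S (lev (dg j (Units.mk0 (2 : F) h2)))⁻¹ m).2) ha
            simpa [apply_inv_apply, e] using this)
          refine ⟨a⁻¹, ?_⟩
          have := congrArg (pr R S (lev (dg j (Units.mk0 (2 : F) h2)))⁻¹) ha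
          rw [apply_inv_apply, map_smul] at this
          rw [map_inv]
          conv_rhs => rw [this, smul_smul, inv_mul_cancel₀ ha0, one_smul]
        · rw [inv_inv, mul_assoc, inv_mul_eq_iff_eq_mul, dg_tv_right]
      · exact ⟨dg i _, hdg i _ hi, by rw [dg_tv_left, mul_inv_cancel_right]⟩
    have e : tv i j h c = D * tv i j h c * D⁻¹ * tv i j h (-c) := by
      rw [hDc, mul_assoc, tv_mul i j h c (-c), add_neg_cancel, tv_zero, mul_one]
    set P := pr R S (lev (tv i j h (-c))) (v, v') with hP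
    have hw : Wt ψ R o P.1 := by
      have := hv.lev (tv i j h (-c)); rwa [hfix] at this
    have hw' : Wt ψ S o P.2 := by
      have := hv'.lev (tv i j h (-c)); rwa [hfix] at this
    have hP0 : P.2 ≠ 0 := fun e => h0 (by
      rw [← apply_inv_apply S (lev (tv i j h (-c))) v']
      exact (congrArg (S (lev (tv i j h (-c)))⁻¹) e).trans (map_zero _))
    obtain ⟨a, ha⟩ := hD P.1 P.2 hw hw' hP0
    obtain ⟨b, hb⟩ := hD v v' hv hv' h0
    obtain ⟨c', hc'⟩ := h1 _ single_ne_zero' _ _ hv' hw' h0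
    have hab : a = b := by
      have e1 := congrArg Prod.snd ha
      have e2 := congrArg Prod.snd hb
      simp only [pr_snd, Prod.smul_snd] at e1 e2
      rw [hc', map_smul, e2, smul_comm a] at e1
      exact (smul_left_injective ℂ h0 (smul_right_injective W (fun h => hP0 (by
        rw [hc', h, zero_smul])) e1)).symm
    have hinv : pr R S (lev D)⁻¹ P = a⁻¹ • P := by
      have ha0 : a ≠ 0 := fun e => hP0 (by
        have := congrArg (pr R S (lev D)⁻¹) ha
        rw [apply_inv_apply, e, zero_smul, map_zero] at this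
        exact congrArg Prod.snd this)
      have := congrArg (pr R S (lev D)⁻¹) ha
      rw [apply_inv_apply, map_smul] at this
      conv_rhs => rw [show P = (P.1, P.2) from rfl, this, smul_smul, inv_mul_cancel₀ ha0, one_smul]
    rw [one_smul]
    conv_lhs => rw [e]
    rw [map_mul lev (D * tv i j h c * D⁻¹), apply_mul, ← hP, map_mul lev (D * tv i j h c), apply_mul,
      map_inv, hinv, map_smul, map_mul, apply_mul, hP, ← apply_mul _ (lev (tv i j h c)),
      ← map_mul, tv_mul, add_neg_cancel, tv_zero, map_one, map_one, Module.End.one_apply, hb,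
      smul_smul, hab, inv_mul_cancel₀, one_smul]
    intro hb0
    have e2 := congrArg (fun m => (pr R S (lev D)⁻¹ m).2) hb
    rw [hb0] at e2
    simp only [apply_inv_apply, zero_smul, map_zero, Prod.snd_zero] at e2
    exact h0 e2
  · exact fun i t hi => ⟨dg_mulVec_single i 0 t hi.symm, hdg i t hi⟩

variable [DecidableEq F] (m : V) (m' : W)
  (hm : Wt ψ R (Pi.single (0 : Fin (k + 2)) (1 : F)) m)
  (hm' : Wt ψ S (Pi.single (0 : Fin (k + 2)) (1 : F)) m') (hm0 : m' ≠ 0)
  (ε : ℂ) (hεR : R (lev (-1 : GL (Fin (k + 2)) F)) = ε • 1)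
  (hεS : S (lev (-1 : GL (Fin (k + 2)) F)) = ε • 1)

variable (R S) in
/-- the pair moved by a Levi element -/
def pt' (g : GL (Fin (k + 2)) F) : V × W := pr R S (lev g) (m, m')

variable (R S) in
/-- the span of the Levi orbit -/
def orb : Submodule ℂ (V × W) := Submodule.span ℂ (Set.range (pt' R S m m'))

include hψ h2 hR hS h1 hm hm' hm0 hεR hεS

omit hεR hεS in
theorem pt'_wt (g : GL (Fin (k + 2)) F) :
    Wt ψ R (g.1 *ᵥ o) (pt' R S m m' g).1 ∧ Wt ψ S (g.1 *ᵥ o) (pt' R S m m' g).2 ∧
      (pt' R S m m' g).2 ≠ 0 :=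
  ⟨hm.lev g, hm'.lev g, fun h => hm0 (by
    rw [← apply_inv_apply S (lev g) m', show S (lev g) m' = 0 from h, map_zero])⟩

omit hεR hεS in
theorem pt'_eq {g g' : GL (Fin (k + 2)) F} (h : g'.1 *ᵥ o = g.1 *ᵥ o) :
    ∃ c : ℂ, pt' R S m m' g' = c • pt' R S m m' g := by
  obtain ⟨c, hc⟩ := stab_scalar hψ h2 hR hS h1 (g⁻¹ * g') (by
    rw [Units.val_mul, ← Matrix.mulVec_mulVec, h, Matrix.mulVec_mulVec, ← Units.val_mul,
      inv_mul_cancel, Units.val_one, Matrix.one_mulVec]) m m' hm hm' hm0
  refine ⟨c, ?_⟩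
  rw [pt', show g' = g * (g⁻¹ * g') by group, map_mul, apply_mul, hc, map_smul]
  rfl

omit hψ h2 hR hS h1 hm hm' hm0 in
theorem pt'_neg (g : GL (Fin (k + 2)) F) :
    pt' R S m m' (g * -1) = ε • pt' R S m m' g := by
  rw [pt', map_mul, apply_mul, show pr R S (lev (-1 : GL (Fin (k + 2)) F)) (m, m') = ε • (m, m') from
    Prod.ext (by rw [pr_fst, hεR]; rfl) (by rw [pr_snd, hεS]; rfl), map_smul]
  rfl

theorem orb_finrank {N : ℕ} (H : SpWeil.Half F (k + 2) N) :
    Module.finrank ℂ (orb R S m m') ≤ N := by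
  choose sel hsel using fun i => exists_move (H.pt i) (H.pt_ne_zero i)
  have hle : orb R S m m' ≤ Submodule.span ℂ (Set.range fun i => pt' R S m m' (sel i)) := by
    rw [orb, Submodule.span_le]
    rintro _ ⟨g, rfl⟩
    have hx : g.1 *ᵥ o ≠ 0 := fun h => single_ne_zero' (F := F) (k := k) (by
      rw [← Matrix.one_mulVec o, ← Units.val_one, ← inv_mul_cancel g, Units.val_mul,
        ← Matrix.mulVec_mulVec, h, Matrix.mulVec_zero])
    obtain ⟨i, hi | hi⟩ := H.cover _ hx
    · obtain ⟨c, hc⟩ := pt'_eq hψ h2 hR hS h1 m m' hm hm' hm0 (g := sel i) (g' := g)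
        (by rw [hi, hsel])
      rw [hc]
      exact Submodule.smul_mem _ _ (Submodule.subset_span ⟨i, rfl⟩)
    · obtain ⟨c, hc⟩ := pt'_eq hψ h2 hR hS h1 m m' hm hm' hm0 (g := sel i * -1) (g' := g) (by
        rw [Units.val_mul, ← Matrix.mulVec_mulVec, Units.val_neg, Units.val_one, Matrix.neg_mulVec,
          Matrix.one_mulVec, Matrix.mulVec_neg, hsel, hi])
      rw [hc, pt'_neg m m' ε hεR hεS]
      exact Submodule.smul_mem _ _ (Submodule.smul_mem _ _ (Submodule.subset_span ⟨i, rfl⟩))
  have := Module.Finite.span_of_finite ℂ (Set.finite_range fun i => pt' R S m m' (sel i))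
  exact (Submodule.finrank_mono hle).trans ((finrank_range_le_card _).trans_eq (Fintype.card_fin N))

omit hεR hεS in
/-- Weyl elements keep orbit vectors away from their line inside the orbit span -/
theorem wi_orb {i j : Fin (k + 2)} (hij : i ≠ j) (g : GL (Fin (k + 2)) F)
    (hj : (g.1 *ᵥ o) j ≠ 0) : pr R S (wi i) (pt' R S m m' g) ∈ orb R S m m' := by
  obtain ⟨hv, hv', h0⟩ := pt'_wt hψ h2 hR hS h1 m m' hm hm' hm0 g
  obtain ⟨f, -, hf⟩ := wi_full (hij := hij) hψ h2 hj hv hv' h0 hR hS h1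
  rw [show pt' R S m m' g = ((pt' R S m m' g).1, (pt' R S m m' g).2) from rfl, hf]
  refine Submodule.sum_mem _ fun a _ => Submodule.smul_mem _ _ (Submodule.subset_span
    ⟨tv i j hij a * g, ?_⟩)
  rw [pt', map_mul, apply_mul]
  rfl

omit hεR hεS in
/-- the exceptional vectors collapse to one line modulo the orbit span -/
theorem wi_line {i l : Fin (k + 2)} (hil : i ≠ l) (g g' : GL (Fin (k + 2)) F) (a b : F)
    (ha : a ≠ 0) (hb : b ≠ 0) (hg : g.1 *ᵥ o = a • Pi.single i 1)
    (hg' : g'.1 *ᵥ o = b • Pi.single l 1) :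
    pr R S (wi i) (pt' R S m m' g) ∈
      orb R S m m' ⊔ Submodule.span ℂ {pr R S (wi l) (pt' R S m m' g')} := by
  classical
  set Z := orb R S m m' ⊔ Submodule.span ℂ {pr R S (wi l) (pt' R S m m' g')}
  set g1 := tv l i hil.symm (b / a) * g with hg1
  have hx1 : g1.1 *ᵥ o = a • Pi.single i 1 + b • Pi.single l 1 := by
    rw [hg1, Units.val_mul, ← Matrix.mulVec_mulVec, hg, tv_mulVec]
    simp [div_mul_cancel₀ _ ha]
  obtain ⟨hv, hv', h0⟩ := pt'_wt hψ h2 hR hS h1 m m' hm hm' hm0 g1
  obtain ⟨f, hf0, hf⟩ := wi_full (hij := hil.symm) hψ h2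
    (show (g1.1 *ᵥ o) i ≠ 0 by rw [hx1]; simpa [hil] using ha) hv hv' h0 hR hS h1
  have hgen : ∀ (u v : Fin (k + 2)) (huv : u ≠ v) (c : F),
      pr R S (lev (tv u v huv c)) ((pt' R S m m' g1).1, (pt' R S m m' g1).2) =
        pt' R S m m' (tv u v huv c * g1) := fun u v huv c => by
    change pr R S (lev (tv u v huv c)) (pt' R S m m' g1) = _
    rw [pt', pt', map_mul lev (tv u v huv c) g1, apply_mul]
  simp only [hgen] at hf
  have hback : tv l i hil.symm (-(b / a)) * g1 = g := by
    rw [hg1, ← mul_assoc, tv_mul, neg_add_cancel, tv_zero, one_mul]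
  rw [Finset.sum_eq_add_sum_sdiff_singleton_of_mem (Finset.mem_univ (-(b / a))), hback] at hf
  have hq : f (-(b / a)) • pr R S (wi i) (pt' R S m m' g) =
      pr R S (wi i) (pr R S (wi l) (pt' R S m m' g1)) - ∑ c ∈ Finset.univ \ {-(b / a)},
        f c • pr R S (wi i) (pt' R S m m' (tv l i hil.symm c * g1)) := by
    have := congrArg (pr R S (wi i)) hf
    rw [map_add, map_smul, map_sum] at this
    simp only [map_smul] at this
    exact eq_sub_of_add_eq this.symm
  rw [← Submodule.smul_mem_iff Z (hf0 (-(b / a))), hq]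
  refine Submodule.sub_mem _ ?_ (Submodule.sum_mem _ fun c hc => Submodule.smul_mem _ _
    (Submodule.mem_sup_left (wi_orb hψ h2 hR hS h1 m m' hm hm' hm0 hil _ ?_)))
  · rw [← apply_mul, wi_comm i l hil, apply_mul]
    obtain ⟨h, -, hh⟩ := wi_full (hij := hil) hψ h2
      (show (g1.1 *ᵥ o) l ≠ 0 by rw [hx1]; simpa [hil.symm] using hb) hv hv' h0 hR hS h1
    simp only [hgen] at hh
    rw [show pr R S (wi i) (pt' R S m m' g1) = _ from hh, map_sum]
    refine Submodule.sum_mem _ fun c _ => ?_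
    rw [map_smul]
    refine Submodule.smul_mem _ _ ?_
    by_cases hca : a + c * b = 0
    · obtain ⟨d, hd⟩ := pt'_eq hψ h2 hR hS h1 m m' hm hm' hm0 (g := g') (g' := tv i l hil c * g1)
        (by rw [Units.val_mul, ← Matrix.mulVec_mulVec, hx1, tv_mulVec, hg']
            funext u
            rcases eq_or_ne u i with rfl | hu
            · simp [hil, hil.symm, hca]
            · simp [hu, hil.symm])
      rw [hd, map_smul]
      exact Submodule.mem_sup_right (Submodule.smul_mem _ _ (Submodule.mem_span_singleton_self _))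
    · refine Submodule.mem_sup_left (wi_orb hψ h2 hR hS h1 m m' hm hm' hm0 hil.symm _ ?_)
      rw [Units.val_mul, ← Matrix.mulVec_mulVec, hx1, tv_mulVec]
      simpa [hil, hil.symm] using hca
  · rw [Finset.mem_sdiff, Finset.mem_singleton] at hc
    rw [Units.val_mul, ← Matrix.mulVec_mulVec, hx1, tv_mulVec]
    simp [hil, hil.symm]
    intro h
    exact hc.2 (by field_simp; linear_combination h)

omit hεR hεS in
theorem orb_levi (g : GL (Fin (k + 2)) F) {z : V × W} (hz : z ∈ orb R S m m') :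
    pr R S (lev g) z ∈ orb R S m m' := by
  induction hz using Submodule.span_induction with
  | mem y hy =>
    obtain ⟨a, rfl⟩ := hy
    exact Submodule.subset_span ⟨g * a, by rw [pt', map_mul, apply_mul]; rfl⟩
  | zero => rw [map_zero]; exact Submodule.zero_mem _
  | add y z _ _ hy hz => rw [map_add]; exact Submodule.add_mem _ hy hz
  | smul c y _ hy => rw [map_smul]; exact Submodule.smul_mem _ c hy

variable (R S) in
/-- the orbit span with the exceptional vector -/
def ext' : Submodule ℂ (V × W) :=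
  orb R S m m' ⊔ Submodule.span ℂ {pr R S (wi 0) (m, m')}

omit hεR hεS in
theorem ext'_invariant (g : Matrix.symplecticGroup (Fin (k + 2)) F) {z : V × W} (hz : z ∈ ext' R S m m') :
    pr R S g z ∈ ext' R S m m' := by
  classical
  set Z := ext' R S m m' with hZ
  have h10 : (1 : Fin (k + 2)) ≠ 0 := by simp
  let K : Subgroup (Matrix.symplecticGroup (Fin (k + 2)) F) :=
    { carrier := {g | ∀ z ∈ Z, pr R S g z ∈ Z}
      one_mem' := fun z hz => by rwa [map_one]
      mul_mem' := fun {a b} ha hb z hz => by rw [apply_mul]; exact ha _ (hb z hz)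
      inv_mem' := fun {a} ha z hz => by
        have hp : ∀ l : ℕ, ∀ z ∈ Z, pr R S (a ^ l) z ∈ Z := by
          intro l
          induction l with
          | zero => intro z hz; rwa [pow_zero, map_one]
          | succ l ih => intro z hz; rw [pow_succ, apply_mul]; exact ih _ (ha z hz)
        rw [show a⁻¹ = a ^ (orderOf a - 1) from inv_eq_of_mul_eq_one_right (by
          rw [← pow_succ', Nat.sub_add_cancel (orderOf_pos a), pow_orderOf_eq_one])]
        exact hp _ z hz }
  have hone : pt' R S m m' 1 = (m, m') := by rw [pt', map_one, map_one]; rfl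
  have hbase : (1 : GL (Fin (k + 2)) F).1 *ᵥ o = (1 : F) • o := by
    rw [Units.val_one, Matrix.one_mulVec, one_smul]
  -- every exceptional vector lies in `Z`
  have hz0 : ∀ (l : Fin (k + 2)) (g : GL (Fin (k + 2)) F) (a : F), a ≠ 0 →
      g.1 *ᵥ o = a • Pi.single l 1 → pr R S (wi l) (pt' R S m m' g) ∈ Z := by
    have hne : ∀ (l : Fin (k + 2)) (g : GL (Fin (k + 2)) F) (a : F), a ≠ 0 → l ≠ 0 →
        g.1 *ᵥ o = a • Pi.single l 1 → pr R S (wi l) (pt' R S m m' g) ∈ Z := by
      intro l g a ha hl hg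
      have := wi_line hψ h2 hR hS h1 m m' hm hm' hm0 hl g 1 a 1 ha one_ne_zero hg hbase
      rwa [hone] at this
    intro l g a ha hg
    rcases eq_or_ne l 0 with rfl | hl
    · obtain ⟨g1, hg1⟩ := exists_move (F := F) (Pi.single (1 : Fin (k + 2)) (1 : F)) (by simp)
      have h1' : g1.1 *ᵥ o = (1 : F) • Pi.single 1 1 := by rw [hg1, one_smul]
      refine (sup_le (le_sup_left : orb R S m m' ≤ Z) ?_)
        (wi_line hψ h2 hR hS h1 m m' hm hm' hm0 h10.symm g g1 a 1 ha one_ne_zero hg h1')
      rw [Submodule.span_le, Set.singleton_subset_iff]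
      exact hne 1 g1 1 one_ne_zero h10 h1'
    · exact hne l g a ha hl hg
  -- an element stabilising the orbit span stabilises `Z` as soon as it moves one exceptional
  -- vector into `Z`
  have hcrit : ∀ (x : Matrix.symplecticGroup (Fin (k + 2)) F) (l : Fin (k + 2)),
      (∀ y ∈ orb R S m m', pr R S x y ∈ orb R S m m') →
      (∀ g : GL (Fin (k + 2)) F, g.1 *ᵥ o = Pi.single l 1 →
        pr R S x (pr R S (wi l) (pt' R S m m' g)) ∈ Z) → x ∈ K := by
    intro x l horb hl y hy
    have hzeta : pr R S x (pr R S (wi 0) (m, m')) ∈ Z := by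
      rcases eq_or_ne l 0 with rfl | hl0
      · have := hl 1 (by rw [Units.val_one, Matrix.one_mulVec])
        rwa [hone] at this
      · obtain ⟨gl, hgl⟩ := exists_move (F := F) (Pi.single l (1 : F)) (by simp)
        have := wi_line hψ h2 hR hS h1 m m' hm hm' hm0 hl0.symm 1 gl 1 1 one_ne_zero one_ne_zero
          hbase (by rw [hgl, one_smul])
        rw [hone] at this
        obtain ⟨u, hu, w, hw, e⟩ := Submodule.mem_sup.1 this
        obtain ⟨c, rfl⟩ := Submodule.mem_span_singleton.1 hw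
        rw [← e, map_add, map_smul]
        exact Submodule.add_mem _ (Submodule.mem_sup_left (horb u hu))
          (Submodule.smul_mem _ _ (hl gl hgl))
    obtain ⟨u, hu, w, hw, rfl⟩ := Submodule.mem_sup.1 hy
    obtain ⟨c, rfl⟩ := Submodule.mem_span_singleton.1 hw
    rw [map_add, map_smul]
    exact Submodule.add_mem _ (Submodule.mem_sup_left (horb u hu)) (Submodule.smul_mem _ _ hzeta)
  have hUorb : ∀ M, ∀ y ∈ orb R S m m', pr R S (siegel M) y ∈ orb R S m m' := by
    intro M y hy
    induction hy using Submodule.span_induction with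
    | mem y hy =>
      obtain ⟨a, rfl⟩ := hy
      obtain ⟨hv, hv', -⟩ := pt'_wt hψ h2 hR hS h1 m m' hm hm' hm0 a
      rw [show pr R S (siegel M) (pt' R S m m' a) = _ from wt_pr hv hv' M]
      exact Submodule.smul_mem _ _ (Submodule.subset_span ⟨a, rfl⟩)
    | zero => rw [map_zero]; exact Submodule.zero_mem _
    | add y z _ _ hy hz => rw [map_add]; exact Submodule.add_mem _ hy hz
    | smul c y _ hy => rw [map_smul]; exact Submodule.smul_mem _ c hy
  have hother : ∀ a : Fin (k + 2), ∃ l, l ≠ a := fun a => exists_ne a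
  have hU : ∀ M, siegel M ∈ K := by
    intro M
    induction M using Matrix.induction_on' with
    | h_zero =>
      rw [show siegel (0 : Matrix (Fin (k + 2)) (Fin (k + 2)) F) = 1 from
        Subtype.ext (by simp [siegel, fromBlocks_one])]
      exact K.one_mem
    | h_add p q hp hq => rw [siegel_add]; exact K.mul_mem hp hq
    | h_std_basis a b s =>
      rw [show Matrix.single a b s = s • Matrix.single a b (1 : F) by simp [Matrix.smul_single]]
      rcases eq_or_ne a b with rfl | hab
      · obtain ⟨l, hl⟩ := hother a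
        refine hcrit _ l (hUorb _) fun g hg => ?_
        rw [← apply_mul, siegel_wi_comm l _ (fun u => by simp [hl.symm]) (fun u => by simp [hl.symm]),
          apply_mul]
        obtain ⟨hv, hv', -⟩ := pt'_wt hψ h2 hR hS h1 m m' hm hm' hm0 g
        rw [show pr R S (siegel (s • Matrix.single a a (1 : F))) (pt' R S m m' g) = _ from
          wt_pr hv hv' _, map_smul]
        exact Submodule.smul_mem _ _ (hz0 l g 1 one_ne_zero (by rw [hg, one_smul]))
      · refine hcrit _ a (hUorb _) fun g hg => ?_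
        rw [← apply_mul, show siegel (s • Matrix.single a b (1 : F)) = cr a b s from rfl,
          ← wi_tv a b hab, apply_mul]
        obtain ⟨c, hc⟩ := pt'_eq hψ h2 hR hS h1 m m' hm hm' hm0 (g := g) (g' := tv a b hab s * g)
          (by rw [Units.val_mul, ← Matrix.mulVec_mulVec, hg, tv_mulVec]; simp [hab.symm])
        rw [show pr R S (lev (tv a b hab s)) (pt' R S m m' g) = pt' R S m m' (tv a b hab s * g) by
          rw [pt', pt', map_mul, apply_mul], hc, map_smul]
        exact Submodule.smul_mem _ _ (hz0 a g 1 one_ne_zero (by rw [hg, one_smul]))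
  have hL : ∀ g, lev g ∈ K := by
    intro g
    induction g using gl_induction with
    | h1 => rw [map_one]; exact K.one_mem
    | hm a b ha hb => rw [map_mul]; exact K.mul_mem ha hb
    | ht a b hab c =>
      refine hcrit _ a (fun y hy => orb_levi hψ h2 hR hS h1 m m' hm hm' hm0 _ hy) fun g hg => ?_
      have hw : lev (tv a b hab c) * wi a = wi a * cr a b (-c) := by
        rw [wi_cr a b hab, neg_neg]
      rw [← apply_mul, hw, apply_mul]
      obtain ⟨hv, hv', -⟩ := pt'_wt hψ h2 hR hS h1 m m' hm hm' hm0 g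
      rw [show pr R S (cr a b (-c)) (pt' R S m m' g) = _ from wt_pr hv hv' _, map_smul]
      exact Submodule.smul_mem _ _ (hz0 a g 1 one_ne_zero (by rw [hg, one_smul]))
    | hd a t =>
      obtain ⟨l, hl⟩ := hother a
      refine hcrit _ l (fun y hy => orb_levi hψ h2 hR hS h1 m m' hm hm' hm0 _ hy) fun g hg => ?_
      rw [← apply_mul, lev_dg_wi_comm l a hl.symm, apply_mul]
      obtain ⟨c, hc⟩ := pt'_eq hψ h2 hR hS h1 m m' hm hm' hm0 (g := g) (g' := dg a t * g)
        (by rw [Units.val_mul, ← Matrix.mulVec_mulVec, hg, dg_mulVec_single a l t hl])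
      rw [show pr R S (lev (dg a t)) (pt' R S m m' g) = pt' R S m m' (dg a t * g) by
        rw [pt', pt', map_mul, apply_mul], hc, map_smul]
      exact Submodule.smul_mem _ _ (hz0 l g 1 one_ne_zero (by rw [hg, one_smul]))
  have hw : wi (0 : Fin (k + 2)) ∈ K := by
    intro y hy
    obtain ⟨u, hu, w, hw, rfl⟩ := Submodule.mem_sup.1 hy
    obtain ⟨c, rfl⟩ := Submodule.mem_span_singleton.1 hw
    rw [map_add, map_smul]
    refine Submodule.add_mem _ ?_ (Submodule.smul_mem _ _ ?_)
    · clear hy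
      induction hu using Submodule.span_induction with
      | mem y hy =>
        obtain ⟨g, rfl⟩ := hy
        by_cases hj : ∃ j, (0 : Fin (k + 2)) ≠ j ∧ (g.1 *ᵥ o) j ≠ 0
        · obtain ⟨j, hj, hj'⟩ := hj
          exact Submodule.mem_sup_left (wi_orb hψ h2 hR hS h1 m m' hm hm' hm0 hj g hj')
        · push Not at hj
          have hx : g.1 *ᵥ o = (g.1 *ᵥ o) 0 • Pi.single 0 1 := funext fun u => by
            rcases eq_or_ne u 0 with rfl | hu
            · simp
            · simp [hj u hu.symm, hu]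
          refine hz0 0 g _ (fun h0 => single_ne_zero' (F := F) (k := k) ?_) hx
          rw [h0, zero_smul] at hx
          rw [← Matrix.one_mulVec o, ← Units.val_one, ← inv_mul_cancel g, Units.val_mul,
            ← Matrix.mulVec_mulVec, hx, Matrix.mulVec_zero]
      | zero => rw [map_zero]; exact Submodule.zero_mem _
      | add y z _ _ hy hz => rw [map_add]; exact Submodule.add_mem _ hy hz
      | smul c y _ hy => rw [map_smul]; exact Submodule.smul_mem _ c hy
    · rw [← apply_mul, wi_sq]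
      exact Submodule.mem_sup_left (Submodule.subset_span ⟨_, rfl⟩)
  have : g ∈ K := by rw [eq_top_of_generators h2 0 K hU hL hw]; exact Subgroup.mem_top g
  exact this z hz

variable [FiniteDimensional ℂ V] [FiniteDimensional ℂ W]

omit hεR hεS hR hS h1 hm' hm0 in
theorem finrank_ge {N : ℕ} (H : SpWeil.Half F (k + 2) N) (hmne : m ≠ 0) :
    N ≤ Module.finrank ℂ V := by
  choose sel hsel using fun i => exists_move (H.pt i) (H.pt_ne_zero i)
  have hli := linearIndependent_weightVec (ι := Fin N) (fun M => R (siegel M))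
    (fun i => chi ψ (H.pt i)) (fun i i' h => by
      rcases chi_inj hψ (fun M => congrFun h M) with e | e
      · exact (H.inj e).symm
      · exact absurd e (H.ne_neg i' i))
    (fun i => R (lev (sel i)) m)
    (fun i => ⟨fun h => hmne (by rw [← apply_inv_apply R (lev (sel i)) m, h, map_zero]),
      fun M => by have := hm.lev (sel i); rw [hsel] at this; exact this M⟩)
  simpa using hli.fintype_card_le_finrank

/-- rigidity of rank-one representations -/
theorem rigid {N : ℕ} (H : SpWeil.Half F (k + 2) N) (hN : 2 ≤ N) (hmne : m ≠ 0)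
    (hVirr : ∀ U : Submodule ℂ V, (∀ g, ∀ u ∈ U, R g u ∈ U) → U = ⊥ ∨ U = ⊤)
    (hWirr : ∀ U : Submodule ℂ W, (∀ g, ∀ u ∈ U, S g u ∈ U) → U = ⊥ ∨ U = ⊤) :
    ∃ e : V ≃ₗ[ℂ] W, ∀ g v, e (R g v) = S g (e v) := by
  set Z := ext' R S m m'
  have hinv : ∀ g, ∀ z ∈ Z, pr R S g z ∈ Z := fun g z hz =>
    ext'_invariant hψ h2 hR hS h1 m m' hm hm' hm0 g hz
  have hmem : (m, m') ∈ Z :=
    Submodule.mem_sup_left (Submodule.subset_span ⟨1, by rw [pt', map_one, map_one]; rfl⟩)
  have hfst : Z.map (LinearMap.fst ℂ V W) = ⊤ :=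
    ((hVirr _ (by rintro g _ ⟨z, hz, rfl⟩; exact ⟨_, hinv g z hz, rfl⟩)).resolve_left fun h =>
      hmne ((Submodule.mem_bot ℂ).1 (h ▸ Submodule.mem_map_of_mem hmem)))
  have hsnd : Z.map (LinearMap.snd ℂ V W) = ⊤ :=
    ((hWirr _ (by rintro g _ ⟨z, hz, rfl⟩; exact ⟨_, hinv g z hz, rfl⟩)).resolve_left fun h =>
      hm0 ((Submodule.mem_bot ℂ).1 (h ▸ Submodule.mem_map_of_mem hmem)))
  have hZ : Module.finrank ℂ Z ≤ N + 1 := by
    refine (Submodule.finrank_add_le_finrank_add_finrank _ _).trans ?_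
    exact add_le_add (orb_finrank hψ h2 hR hS h1 m m' hm hm' hm0 ε hεR hεS H)
      ((finrank_span_le_card _).trans (by simp))
  have hV := finrank_ge (R := R) hψ h2 m hm H hmne
  have hW := finrank_ge (R := S) hψ h2 m' hm' H hm0
  have hfull : ¬ Z = ⊤ := fun h => by
    rw [h, finrank_top, Module.finrank_prod] at hZ
    omega
  have hk1 : Z.comap (LinearMap.inl ℂ V W) = ⊥ :=
    ((hVirr _ (fun g u hu => by
      have := hinv g _ hu
      simpa [pr] using this)).resolve_right fun h => hfull (eq_top_iff.2 fun z _ => by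
        obtain ⟨y, hy, hy'⟩ : z.2 ∈ Z.map (LinearMap.snd ℂ V W) := hsnd ▸ Submodule.mem_top
        have hd : (z.1 - y.1, (0 : W)) ∈ Z :=
          (h ▸ Submodule.mem_top : z.1 - y.1 ∈ Z.comap (LinearMap.inl ℂ V W))
        have := Z.add_mem hd hy
        rwa [show (z.1 - y.1, (0 : W)) + y = z from
          Prod.ext (sub_add_cancel _ _) (by simpa using hy')] at this))
  have hk2 : Z.comap (LinearMap.inr ℂ V W) = ⊥ :=
    ((hWirr _ (fun g u hu => by
      have := hinv g _ hu
      simpa [pr] using this)).resolve_right fun h => hfull (eq_top_iff.2 fun z _ => by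
        obtain ⟨y, hy, hy'⟩ : z.1 ∈ Z.map (LinearMap.fst ℂ V W) := hfst ▸ Submodule.mem_top
        have hd : ((0 : V), z.2 - y.2) ∈ Z :=
          (h ▸ Submodule.mem_top : z.2 - y.2 ∈ Z.comap (LinearMap.inr ℂ V W))
        have := Z.add_mem hd hy
        rwa [show ((0 : V), z.2 - y.2) + y = z from
          Prod.ext (by simpa using hy') (sub_add_cancel _ _)] at this))
  let p1 : Z ≃ₗ[ℂ] V := LinearEquiv.ofBijective (LinearMap.fst ℂ V W ∘ₗ Z.subtype) ⟨by
    rw [← LinearMap.ker_eq_bot, LinearMap.ker_eq_bot']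
    intro z hz
    have hz' : z.1.1 = 0 := hz
    have h' : z.1.2 ∈ Z.comap (LinearMap.inr ℂ V W) := by
      change ((0 : V), z.1.2) ∈ Z
      rw [← hz']
      exact z.2
    rw [hk2, Submodule.mem_bot] at h'
    exact Subtype.ext (Prod.ext hz' h'), fun v => by
      obtain ⟨y, hy, rfl⟩ : v ∈ Z.map (LinearMap.fst ℂ V W) := hfst ▸ Submodule.mem_top
      exact ⟨⟨y, hy⟩, rfl⟩⟩
  let p2 : Z ≃ₗ[ℂ] W := LinearEquiv.ofBijective (LinearMap.snd ℂ V W ∘ₗ Z.subtype) ⟨by
    rw [← LinearMap.ker_eq_bot, LinearMap.ker_eq_bot']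
    intro z hz
    have hz' : z.1.2 = 0 := hz
    have h' : z.1.1 ∈ Z.comap (LinearMap.inl ℂ V W) := by
      change (z.1.1, (0 : W)) ∈ Z
      rw [← hz']
      exact z.2
    rw [hk1, Submodule.mem_bot] at h'
    exact Subtype.ext (Prod.ext h' hz'), fun v => by
      obtain ⟨y, hy, rfl⟩ : v ∈ Z.map (LinearMap.snd ℂ V W) := hsnd ▸ Submodule.mem_top
      exact ⟨⟨y, hy⟩, rfl⟩⟩
  refine ⟨p1.symm.trans p2, fun g v => ?_⟩
  obtain ⟨z, rfl⟩ := p1.surjective v
  have e : R g (p1 z) = p1 ⟨pr R S g z, hinv g z z.2⟩ := rfl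
  rw [e, LinearEquiv.trans_apply, LinearEquiv.trans_apply, LinearEquiv.symm_apply_apply,
    LinearEquiv.symm_apply_apply]
  rfl

end Cfsg.Agent.FGS75.Weil
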