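import Cfsg.Agent.FGS75.Weil.Count
import Cfsg.Agent.FGS75.Weil.Rigid
import Cfsg.Agent.FGS75.Weil.Parts
import Cfsg.Prelude.Def_Characters

/-!
The four Weil characters of `Sp_2n(q)`, `q` odd, `n ≥ 2`, and the degree gap above them.
-/

namespace Cfsg.Agent.FGS75.Weil

open Matrix Cfsg.Agent.Weights
open Cfsg.Agent.MinDeg (siegel siegel_add)

variable {F : Type*} [Field F] {k : ℕ}
variable {V : Type*} [AddCommGroup V] [Module ℂ V]

local notation "o" => (Pi.single 0 1 : Fin (k + 2) → F)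

theorem rankOne_mulShift {ψ : AddChar F ℂ} {ν : F} (hν : ν ≠ 0)
    {R : Matrix.symplecticGroup (Fin (k + 2)) F →* Module.End ℂ V} (h : RankOne ψ R) :
    RankOne (ψ.mulShift ν) R := fun Φ hΦ => by
  obtain ⟨c, x, hx⟩ := h Φ hΦ
  refine ⟨c / ν, x, fun M => ?_⟩
  rw [hx, AddChar.mulShift_apply, ← mul_assoc, mul_div_cancel₀ _ hν]

variable [Fintype F] [DecidableEq F]

theorem isPrimitive_mulShift {ψ : AddChar F ℂ} (hψ : ψ.IsPrimitive) {ν : F} (hν : ν ≠ 0) :
    (ψ.mulShift ν).IsPrimitive := by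
  intro a ha h
  refine hψ (mul_ne_zero hν ha) (DFunLike.ext _ _ fun s => ?_)
  have := DFunLike.congr_fun h s
  rw [AddChar.mulShift_apply, AddChar.mulShift_apply] at this
  rw [AddChar.mulShift_apply, mul_assoc]
  exact this

theorem exists_sign [FiniteDimensional ℂ V] [Nontrivial V]
    (R : Matrix.symplecticGroup (Fin (k + 2)) F →* Module.End ℂ V)
    (hirr : ∀ U : Submodule ℂ V, (∀ g, ∀ u ∈ U, R g u ∈ U) → U = ⊥ ∨ U = ⊤) :
    ∃ ε : ℂ, (ε = 1 ∨ ε = -1) ∧ R (lev (-1 : GL (Fin (k + 2)) F)) = ε • 1 := by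
  set z : Matrix.symplecticGroup (Fin (k + 2)) F := lev (-1 : GL (Fin (k + 2)) F)
  obtain ⟨μ, hμ⟩ := Module.End.exists_eigenvalue (R z)
  obtain ⟨v, hv⟩ := hμ.exists_hasEigenvector
  have htop : Module.End.eigenspace (R z) μ = ⊤ := by
    refine (hirr _ fun g u hu => ?_).resolve_left fun h => hv.2 ?_
    · rw [Module.End.mem_eigenspace_iff] at hu ⊢
      rw [← apply_mul, ← lev_neg_one_comm g, apply_mul, hu, map_smul]
    · have : v ∈ Module.End.eigenspace (R z) μ := hv.1
      rw [h, Submodule.mem_bot] at this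
      exact this
  have hz : R z = μ • 1 := LinearMap.ext fun u => by
    have : u ∈ Module.End.eigenspace (R z) μ := htop ▸ Submodule.mem_top
    rw [Module.End.mem_eigenspace_iff] at this
    rw [this]; rfl
  refine ⟨μ, mul_self_eq_one_iff.1 ?_, hz⟩
  have h2 : R z (R z v) = v := by
    rw [← apply_mul, ← map_mul, neg_mul_neg, mul_one, map_one, map_one]; rfl
  rw [hz] at h2
  simp only [LinearMap.smul_apply, Module.End.one_apply, smul_smul] at h2
  exact smul_left_injective ℂ hv.2 (h2.trans (one_smul ℂ v).symm)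

variable {N : ℕ} (H : SpWeil.Half F (k + 2) N) (hodd : Odd (Fintype.card F))
variable (hN : Fintype.card F ^ (k + 2) = 2 * N + 1) (hN2 : 2 ≤ N)
include H hodd hN hN2

/-- a rank-one representation with a weight in the class of `ψ` is one of the two constituents -/
theorem match_part [FiniteDimensional ℂ V] {ψ : AddChar F ℂ} (hψ : ψ.IsPrimitive)
    (h2 : (2 : F) ≠ 0) (R : Matrix.symplecticGroup (Fin (k + 2)) F →* Module.End ℂ V)
    (hirr : ∀ U : Submodule ℂ V, (∀ g, ∀ u ∈ U, R g u ∈ U) → U = ⊥ ∨ U = ⊤)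
    (hR : RankOne ψ R) (v : V) (hv0 : v ≠ 0) (y : Fin (k + 2) → F) (hy : y ≠ 0) (hv : Wt ψ R y v) :
    (∀ g, LinearMap.trace ℂ V (R g) = LinearMap.trace ℂ _ (wo hψ h2 H g)) ∨
    (∀ g, LinearMap.trace ℂ V (R g) = LinearMap.trace ℂ _ (we hψ h2 H g)) := by
  have : Nontrivial V := nontrivial_of_ne v 0 hv0
  obtain ⟨ε, hε, hεR⟩ := exists_sign R hirr
  obtain ⟨g, hg⟩ := exists_move y hy
  have hm : Wt ψ R o (R (lev g⁻¹) v) := by
    have := hv.lev g⁻¹
    rwa [← hg, Matrix.mulVec_mulVec, ← Units.val_mul, inv_mul_cancel, Units.val_one,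
      Matrix.one_mulVec] at this
  have hm0 : R (lev g⁻¹) v ≠ 0 := fun h => hv0 (by
    rw [← apply_inv_apply R (lev g⁻¹) v, h, map_zero])
  have key : ∀ {W : Type} [AddCommGroup W] [Module ℂ W] [FiniteDimensional ℂ W]
      (S : Matrix.symplecticGroup (Fin (k + 2)) F →* Module.End ℂ W), IsWeilPart ψ S →
      S (lev (-1 : GL (Fin (k + 2)) F)) = ε • 1 →
      ∀ g, LinearMap.trace ℂ V (R g) = LinearMap.trace ℂ W (S g) := by
    intro W _ _ _ S hS hεS g'
    obtain ⟨w, hw0, hw⟩ := hS.base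
    obtain ⟨e, he⟩ := rigid hψ h2 hR hS.rankOne hS.oneDim _ w hm hw hw0 ε hεR hεS H hN2 hm0 hirr
      hS.irr
    rw [← LinearMap.trace_conj' (R g') e]
    congr 1
    refine LinearMap.ext fun x => ?_
    rw [LinearEquiv.conj_apply_apply, he, LinearEquiv.apply_symm_apply]
  have hwo := key (wo hψ h2 H) (wo_isWeilPart hψ h2 H hodd hN hN2)
  have hwe := key (we hψ h2 H) (we_isWeilPart hψ h2 H hodd hN hN2)
  rw [wo_neg_one] at hwo
  rw [we_neg_one] at hwe
  rcases neg_one_pow_eq_or ℂ N with e | e <;> rcases hε with rfl | rfl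
  · exact Or.inr (hwe (by rw [e]))
  · exact Or.inl (hwo (by rw [e]))
  · exact Or.inl (hwo (by rw [e, neg_neg]))
  · exact Or.inr (hwe (by rw [e]))

/-- trivial, of large degree, or a Weil constituent for one of two classes -/
theorem classify [FiniteDimensional ℂ V] {ψ : AddChar F ℂ} (hψ : ψ.IsPrimitive) (h2 : (2 : F) ≠ 0)
    {ν : F} (hν : ¬ IsSquare ν) (hψν : (ψ.mulShift ν).IsPrimitive)
    (R : Matrix.symplecticGroup (Fin (k + 2)) F →* Module.End ℂ V) [Nontrivial V]
    (hirr : ∀ U : Submodule ℂ V, (∀ g, ∀ u ∈ U, R g u ∈ U) → U = ⊥ ∨ U = ⊤) :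
    Module.finrank ℂ V = 1 ∨
    (Fintype.card F ^ (k + 2) - 1) * (Fintype.card F ^ (k + 2) - Fintype.card F) ≤
      Module.finrank ℂ V * (2 * (Fintype.card F + 1)) ∨
    (∀ g, LinearMap.trace ℂ V (R g) = LinearMap.trace ℂ _ (wo hψ h2 H g)) ∨
    (∀ g, LinearMap.trace ℂ V (R g) = LinearMap.trace ℂ _ (we hψ h2 H g)) ∨
    (∀ g, LinearMap.trace ℂ V (R g) = LinearMap.trace ℂ _ (wo hψν h2 H g)) ∨
    (∀ g, LinearMap.trace ℂ V (R g) = LinearMap.trace ℂ _ (we hψν h2 H g)) := by
  classical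
  by_cases htriv : ∀ Φ, IsWeight (fun M => R (siegel M)) Φ → ∀ M, Φ M = 1
  · left
    have hS : ∀ M, R (siegel M) = 1 := fun M => LinearMap.ext fun v => by
      conv_lhs => rw [← sum_eig (R := R) v]
      rw [map_sum, Module.End.one_apply]
      conv_rhs => rw [← sum_eig (R := R) v]
      refine Finset.sum_congr rfl fun Φ _ => ?_
      by_cases hΦ : eig R Φ v = 0
      · rw [hΦ, map_zero]
      rw [eig_weight, htriv Φ ⟨_, hΦ, fun M => eig_weight Φ v M⟩ M, one_smul]
    have hall := MinDeg.sp_trivial_of_siegel (by omega) h2 R hS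
    obtain ⟨v, hv⟩ := exists_ne (0 : V)
    refine finrank_eq_one v hv fun w => ?_
    have htop : Submodule.span ℂ {v} = ⊤ :=
      (hirr _ fun g u hu => by rwa [hall g, Module.End.one_apply]).resolve_left fun h =>
        hv ((Submodule.mem_bot ℂ).1 (h ▸ Submodule.mem_span_singleton_self v))
    exact Submodule.mem_span_singleton.1 (htop ▸ Submodule.mem_top)
  right
  by_cases hr : RankOne ψ R
  · right
    push Not at htriv
    obtain ⟨Φ, hΦ, M0, hM0⟩ := htriv
    obtain ⟨c, x, hx⟩ := hr Φ hΦ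
    obtain ⟨v, hv0, hv⟩ := hΦ
    have hc : c ≠ 0 := fun h => hM0 (by rw [hx, h, zero_mul, AddChar.map_zero_eq_one])
    have hx0 : x ≠ 0 := fun h => hM0 (by
      rw [hx, h, zero_dotProduct, mul_zero, AddChar.map_zero_eq_one])
    by_cases hsq : IsSquare c
    · obtain ⟨s, rfl⟩ := hsq
      rcases match_part H hodd hN hN2 hψ h2 R hirr hr v hv0 (s • x)
        (smul_ne_zero (left_ne_zero_of_mul hc) hx0) (fun M => by
          rw [show R (siegel M) v = _ from hv M, hx, chi, Matrix.mulVec_smul, smul_dotProduct,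
            dotProduct_smul, smul_eq_mul, smul_eq_mul, mul_assoc]) with h | h
      · exact Or.inl h
      · exact Or.inr (Or.inl h)
    · have hν0 : ν ≠ 0 := fun h => hν (h ▸ IsSquare.zero)
      obtain ⟨s, hs⟩ : IsSquare (c * ν⁻¹) := by
        refine (quadraticChar_one_iff_isSquare (mul_ne_zero hc (inv_ne_zero hν0))).1 ?_
        rw [map_mul, (quadraticChar_neg_one_iff_not_isSquare).2 hsq,
          (quadraticChar_neg_one_iff_not_isSquare).2 fun h => hν (inv_inv ν ▸ h.inv)]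
        norm_num
      have hs0 : s ≠ 0 := fun h => by simp [h, hc, hν0] at hs
      have hcs : c = ν * (s * s) := by rw [← hs]; field_simp
      rcases match_part H hodd hN hN2 hψν h2 R hirr (rankOne_mulShift hν0 hr) v hv0 (s • x)
        (smul_ne_zero hs0 hx0) (fun M => by
          rw [show R (siegel M) v = _ from hv M, hx, chi, AddChar.mulShift_apply, Matrix.mulVec_smul,
            smul_dotProduct, dotProduct_smul, smul_eq_mul, smul_eq_mul, hcs]
          ring_nf) with h | h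
      · exact Or.inr (Or.inr (Or.inl h))
      · exact Or.inr (Or.inr (Or.inr h))
  · left
    rw [RankOne] at hr
    push Not at hr
    obtain ⟨Φ, hΦ, hΦ'⟩ := hr
    rcases rank_cases hψ Φ hΦ h2 with ⟨c, x, hx⟩ | ⟨u, v, b0, b1, hb0, hb1, hu, hv, huv⟩
    · obtain ⟨M, hM⟩ := hΦ' c x
      exact absurd (hx M) hM
    · exact rank_two_bound hψ h2 Φ hΦ u v b0 b1 hb0 hb1 hu hv huv

/-- the two classes give different constituents -/
theorem class_sum_ne {ψ : AddChar F ℂ} (hψ : ψ.IsPrimitive) {ν : F} (hν : ¬ IsSquare ν)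
    (hψν : (ψ.mulShift ν).IsPrimitive)
    (h : ∀ M, ∑ i, chi ψ (H.pt i) M = ∑ i, chi (ψ.mulShift ν) (H.pt i) M) : False := by
  classical
  let Φ : AddChar F ℂ → (Fin (k + 2) → F) → AddChar (Matrix (Fin (k + 2)) (Fin (k + 2)) F) ℂ :=
    fun φ x =>
    { toFun := chi φ x
      map_zero_eq_one' := by simp [chi]
      map_add_eq_mul' := fun M M' => by
        simp [chi, Matrix.add_mulVec, dotProduct_add, AddChar.map_add_eq_mul] }
  have hmix : ∀ i j, chi ψ (H.pt i) ≠ chi (ψ.mulShift ν) (H.pt j) := fun i j e => by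
    obtain ⟨a, ha⟩ := Function.ne_iff.1 (H.pt_ne_zero j)
    rw [Pi.zero_apply] at ha
    have := chi_prod hψ (c := ν) (x := H.pt i) (y := H.pt j) (a := a) (b := a) fun s => by
      have := congrFun e (s • single a a 1)
      rw [this, chi, AddChar.mulShift_apply]
    exact hν ⟨H.pt i a / H.pt j a, by field_simp; linear_combination this⟩
  let f : Fin N ⊕ Fin N → AddChar (Matrix (Fin (k + 2)) (Fin (k + 2)) F) ℂ :=
    Sum.elim (fun i => Φ ψ (H.pt i)) (fun i => Φ (ψ.mulShift ν) (H.pt i))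
  have hsame : ∀ (φ : AddChar F ℂ), φ.IsPrimitive → ∀ i j, chi φ (H.pt i) = chi φ (H.pt j) → i = j :=
    fun φ hφ i j e => pt_unique H i j (chi_inj hφ fun M => congrFun e M)
  have hf : Function.Injective f := by
    intro a b e
    have e' : ((f a : AddChar _ ℂ) : _ → ℂ) = f b := congrArg DFunLike.coe e
    rcases a with i | i <;> rcases b with j | j
    · exact congrArg Sum.inl (hsame ψ hψ i j e')
    · exact absurd e' (hmix i j)
    · exact absurd e'.symm (hmix j i)
    · exact congrArg Sum.inr (hsame _ hψν i j e')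
  have hli := Fintype.linearIndependent_iff.1
    ((AddChar.linearIndependent (Matrix (Fin (k + 2)) (Fin (k + 2)) F) ℂ).comp f hf)
    (Sum.elim (fun _ => 1) (fun _ => -1)) ?_ (Sum.inl ⟨0, by omega⟩)
  · simp at hli
  · funext M
    simp only [Function.comp_apply, Fintype.sum_sum_type, Sum.elim_inl, Sum.elim_inr, one_smul,
      neg_smul, Finset.sum_neg_distrib, Pi.add_apply, Finset.sum_apply, Pi.neg_apply, Pi.zero_apply]
    exact sub_eq_zero.2 (h M) ▸ (sub_eq_add_neg _ _).symm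

end Cfsg.Agent.FGS75.Weil
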