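import Cfsg.Agent.FGS75.Weil.Gen

/-!
Representations of `Sp_2n(q)` with rank-one Siegel spectrum: the action of a long root `SL_2` on a
slice of weight vectors is the same for any two such representations.
-/

namespace Cfsg.Agent.FGS75.Weil

open Matrix Cfsg.Agent.Weights
open Cfsg.Agent.MinDeg (siegel siegel_add)

variable {F : Type*} [Field F] {n : ℕ}
variable {V W : Type*} [AddCommGroup V] [Module ℂ V] [AddCommGroup W] [Module ℂ W]

/-- the rank-one character attached to a vector -/
def chi (ψ : AddChar F ℂ) (x : Fin n → F) (M : Matrix (Fin n) (Fin n) F) : ℂ := ψ (x ⬝ᵥ M *ᵥ x)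

/-- weight vectors for a rank-one character -/
def Wt (ψ : AddChar F ℂ) (R : Matrix.symplecticGroup (Fin n) F →* Module.End ℂ V) (x : Fin n → F)
    (v : V) : Prop := ∀ M, R (siegel M) v = chi ψ x M • v

/-- all Siegel weights have rank at most one -/
def RankOne (ψ : AddChar F ℂ) (R : Matrix.symplecticGroup (Fin n) F →* Module.End ℂ V) : Prop :=
  ∀ Φ : Matrix (Fin n) (Fin n) F → ℂ, IsWeight (fun M => R (siegel M)) Φ →
    ∃ (c : F) (x : Fin n → F), ∀ M, Φ M = ψ (c * (x ⬝ᵥ M *ᵥ x))

/-- weight spaces at non-zero vectors are lines -/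
def OneDim (ψ : AddChar F ℂ) (R : Matrix.symplecticGroup (Fin n) F →* Module.End ℂ V) : Prop :=
  ∀ x, x ≠ 0 → ∀ w w', Wt ψ R x w → Wt ψ R x w' → w ≠ 0 → ∃ c : ℂ, w' = c • w

theorem apply_mul (R : Matrix.symplecticGroup (Fin n) F →* Module.End ℂ V)
    (g h : Matrix.symplecticGroup (Fin n) F) (v : V) : R (g * h) v = R g (R h v) := by
  rw [map_mul]; rfl

theorem apply_inv_apply (R : Matrix.symplecticGroup (Fin n) F →* Module.End ℂ V)
    (g : Matrix.symplecticGroup (Fin n) F) (v : V) : R g⁻¹ (R g v) = v := by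
  rw [← apply_mul, inv_mul_cancel, map_one]; rfl

theorem apply_apply_inv (R : Matrix.symplecticGroup (Fin n) F →* Module.End ℂ V)
    (g : Matrix.symplecticGroup (Fin n) F) (v : V) : R g (R g⁻¹ v) = v := by
  rw [← apply_mul, mul_inv_cancel, map_one]; rfl

variable {ψ : AddChar F ℂ} {R : Matrix.symplecticGroup (Fin n) F →* Module.End ℂ V}
  {S : Matrix.symplecticGroup (Fin n) F →* Module.End ℂ W}

theorem quad_single (x : Fin n → F) (a b : Fin n) (s : F) :
    x ⬝ᵥ (s • single a b (1 : F)) *ᵥ x = s * (x a * x b) := by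
  rw [Matrix.smul_mulVec, dotProduct_smul, Matrix.single_mulVec, dotProduct]
  simp [Function.update_apply]

theorem Wt.lev {x : Fin n → F} {v : V} (hv : Wt ψ R x v) (g : GL (Fin n) F) :
    Wt ψ R (g.1 *ᵥ x) (R (lev g) v) := by
  intro M
  have e : g.1 * (g⁻¹).1 = 1 := by rw [← Units.val_mul, mul_inv_cancel, Units.val_one]
  have h := lev_siegel g (g.1ᵀ * M * g.1)
  rw [show (g⁻¹).1ᵀ * (g.1ᵀ * M * g.1) * (g⁻¹).1 = M from by
    simp only [← Matrix.mul_assoc]
    rw [← Matrix.transpose_mul, e, Matrix.transpose_one, Matrix.one_mul, Matrix.mul_assoc, e,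
      Matrix.mul_one]] at h
  rw [← apply_mul, ← h, apply_mul, hv, map_smul]
  congr 1
  rw [chi, chi, ← Matrix.mulVec_mulVec, ← Matrix.mulVec_mulVec, Matrix.dotProduct_mulVec x g.1ᵀ,
    Matrix.vecMul_transpose]

theorem Wt.smul {x : Fin n → F} {v : V} (hv : Wt ψ R x v) (c : ℂ) : Wt ψ R x (c • v) := fun M => by
  rw [map_smul, hv, smul_comm]

variable [Fintype F] (hψ : ψ.IsPrimitive)
include hψ

theorem char_inj {a b : F} (h : ∀ s, ψ (a * s) = ψ (b * s)) : a = b :=
  AddChar.to_mulShift_inj_of_isPrimitive hψ (DFunLike.ext _ _ fun s => by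
    simp only [AddChar.mulShift_apply]; exact h s)

theorem chi_prod {c : F} {x y : Fin n → F} {a b : Fin n}
    (h : ∀ s : F, ψ (c * (y ⬝ᵥ (s • single a b (1 : F)) *ᵥ y)) = chi ψ x (s • single a b 1)) :
    c * (y a * y b) = x a * x b :=
  char_inj hψ fun s => by
    have := h s
    rw [chi, quad_single, quad_single] at this
    rw [mul_comm _ s, mul_comm _ s, ← mul_left_comm, this]

theorem chi_inj {x y : Fin n → F} (h : ∀ M, chi ψ x M = chi ψ y M) : y = x ∨ y = -x := by
  have hp : ∀ a b, y a * y b = x a * x b := fun a b => by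
    have := chi_prod hψ (c := 1) (x := x) (y := y) (a := a) (b := b) fun s => by
      rw [one_mul]; exact (h _).symm
    rwa [one_mul] at this
  by_cases hx : x = 0
  · left
    funext a
    have := hp a a
    simp only [hx, Pi.zero_apply, mul_zero] at this
    simpa [hx] using mul_self_eq_zero.1 this
  obtain ⟨j, hj⟩ := Function.ne_iff.1 hx
  rw [Pi.zero_apply] at hj
  rcases mul_self_eq_mul_self_iff.1 (hp j j) with e | e
  · refine Or.inl (funext fun a => ?_)
    have := hp a j
    rw [e] at this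
    exact mul_right_cancel₀ hj this
  · refine Or.inr (funext fun a => ?_)
    have := hp a j
    rw [e] at this
    rw [Pi.neg_apply]
    exact mul_right_cancel₀ hj (by linear_combination -this)

theorem Wt.eq_or_neg {x y : Fin n → F} {v : V} (hv : Wt ψ R x v) (hv' : Wt ψ R y v) (h0 : v ≠ 0) :
    y = x ∨ y = -x :=
  chi_inj hψ fun M => smul_left_injective ℂ h0 ((hv M).symm.trans (hv' M))

omit hψ in
/-- projection of a vector on the weight space of a character of the Siegel radical -/
noncomputable def eig (R : Matrix.symplecticGroup (Fin n) F →* Module.End ℂ V)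
    (Φ : AddChar (Matrix (Fin n) (Fin n) F) ℂ) (v : V) : V :=
  (Nat.card (Matrix (Fin n) (Fin n) F) : ℂ)⁻¹ • ∑ M, Φ (-M) • R (siegel M) v

omit hψ in
theorem sum_eig [DecidableEq F] (v : V) : ∑ Φ, eig R Φ v = v := by
  simp only [eig]
  rw [← Finset.smul_sum, Finset.sum_comm]
  simp only [← Finset.sum_smul]
  rw [Finset.sum_eq_single (0 : Matrix (Fin n) (Fin n) F)]
  · rw [AddChar.sum_apply_eq_ite, if_pos neg_zero, smul_smul, Nat.card_eq_fintype_card,
      inv_mul_cancel₀ (Nat.cast_ne_zero.2 Fintype.card_ne_zero), one_smul]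
    have : siegel (0 : Matrix (Fin n) (Fin n) F) = 1 :=
      Subtype.ext (by simp [siegel, fromBlocks_one])
    rw [this, map_one]; rfl
  · intro M _ hM
    rw [AddChar.sum_apply_eq_ite, if_neg (neg_ne_zero.2 hM), zero_smul]
  · exact fun h => absurd (Finset.mem_univ _) h

omit hψ in
theorem eig_weight (Φ : AddChar (Matrix (Fin n) (Fin n) F) ℂ) (v : V)
    (M : Matrix (Fin n) (Fin n) F) : R (siegel M) (eig R Φ v) = Φ M • eig R Φ v := by
  rw [eig, map_smul, smul_comm]
  congr 1
  rw [map_sum, Finset.smul_sum]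
  refine Fintype.sum_equiv (Equiv.addLeft M) _ _ fun N => ?_
  rw [map_smul, smul_smul, ← apply_mul, ← siegel_add, ← AddChar.map_add_eq_mul]
  congr 2
  simp

omit hψ in
theorem eig_eq_zero_of_ne (Φ : AddChar (Matrix (Fin n) (Fin n) F) ℂ) (v : V)
    (M : Matrix (Fin n) (Fin n) F) (ξ : ℂ) (hv : R (siegel M) v = ξ • v) (h : eig R Φ v ≠ 0) :
    Φ M = ξ := by
  apply smul_left_injective ℂ h
  dsimp only
  rw [← eig_weight, eig, map_smul, smul_comm ξ]
  congr 1
  rw [map_sum, Finset.smul_sum]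
  refine Finset.sum_congr rfl fun N _ => ?_
  rw [map_smul, smul_comm ξ, ← apply_mul, ← siegel_add, add_comm, siegel_add, apply_mul, hv,
    map_smul]

/-- eigenvectors of the part of the radical off the `i`-th coordinate split along the slice -/
theorem slice_eig (hR : RankOne ψ R) {i j : Fin n} (hij : i ≠ j) (x : Fin n → F) (hxj : x j ≠ 0)
    (v : V) (hv : ∀ M : Matrix (Fin n) (Fin n) F, (∀ k, M i k = 0) → (∀ k, M k i = 0) →
      R (siegel M) v = chi ψ x M • v)
    (Φ : AddChar (Matrix (Fin n) (Fin n) F) ℂ) (hΦ : eig R Φ v ≠ 0) :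
    ∃ a : F, ⇑Φ = chi ψ (x + a • Pi.single i 1) := by
  obtain ⟨c, y, hy⟩ := hR Φ ⟨eig R Φ v, hΦ, fun M => eig_weight Φ v M⟩
  have hp : ∀ a b, a ≠ i → b ≠ i → c * (y a * y b) = x a * x b := fun a b ha hb =>
    chi_prod hψ fun s => by
      rw [← hy]
      refine eig_eq_zero_of_ne Φ v _ _ (hv _ (fun k => ?_) fun k => ?_) hΦ
      · simp [ha]
      · simp [hb]
  have hjj := hp j j hij.symm hij.symm
  have hyj : y j ≠ 0 := fun h => hxj (by
    rw [h, zero_mul, mul_zero] at hjj
    exact mul_self_eq_zero.1 hjj.symm)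
  refine ⟨x j / y j * y i - x i, funext fun M => ?_⟩
  have he : x + (x j / y j * y i - x i) • Pi.single i 1 = (x j / y j) • y := by
    funext k
    rcases eq_or_ne k i with rfl | hk
    · simp
    · have h1 := hp k j hk hij.symm
      simp [hk]
      field_simp
      refine mul_right_cancel₀ hxj ?_
      linear_combination (-(y j)) * h1 + (y k) * hjj
  rw [hy, chi, he, Matrix.mulVec_smul, smul_dotProduct, dotProduct_smul, smul_eq_mul, smul_eq_mul,
    ← mul_assoc]
  congr 2
  field_simp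
  linear_combination hjj

theorem mem_span_slice (hR : RankOne ψ R) {i j : Fin n} (hij : i ≠ j) (x : Fin n → F)
    (hxj : x j ≠ 0) (v : V) (hv : ∀ M : Matrix (Fin n) (Fin n) F, (∀ k, M i k = 0) →
      (∀ k, M k i = 0) → R (siegel M) v = chi ψ x M • v) :
    v ∈ Submodule.span ℂ {w | ∃ a : F, Wt ψ R (x + a • Pi.single i 1) w} := by
  classical
  rw [← sum_eig (R := R) v]
  refine Submodule.sum_mem _ fun Φ _ => ?_
  by_cases hΦ : eig R Φ v = 0
  · rw [hΦ]; exact Submodule.zero_mem _
  obtain ⟨a, ha⟩ := slice_eig hψ hR hij x hxj v hv Φ hΦ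
  exact Submodule.subset_span ⟨a, fun M => by rw [eig_weight, ha]⟩

theorem wt_of_slice (h2 : (2 : F) ≠ 0) (hR : RankOne ψ R) {i j : Fin n} (hij : i ≠ j) (x : Fin n → F)
    (hxj : x j ≠ 0) (v : V) (hv : ∀ M : Matrix (Fin n) (Fin n) F, (∀ k, M i k = 0) →
      (∀ k, M k i = 0) → R (siegel M) v = chi ψ x M • v)
    (hv' : ∀ b : F, R (siegel (b • single i j 1)) v = chi ψ x (b • single i j 1) • v) :
    Wt ψ R x v := by
  classical
  intro M
  rw [← sum_eig (R := R) v, map_sum, Finset.smul_sum]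
  refine Finset.sum_congr rfl fun Φ _ => ?_
  by_cases hΦ : eig R Φ v = 0
  · rw [hΦ, map_zero, smul_zero]
  obtain ⟨a, ha⟩ := slice_eig hψ hR hij x hxj v hv Φ hΦ
  rw [eig_weight, ha]
  have h1 : 1 * ((x + a • Pi.single i 1 : Fin n → F) i * (x + a • Pi.single i 1 : Fin n → F) j) =
      x i * x j := chi_prod hψ fun s => by
    rw [one_mul]
    have := eig_eq_zero_of_ne Φ v _ _ (hv' s) hΦ
    rwa [ha] at this
  simp [hij.symm] at h1
  have ha0 : a = 0 := by
    rcases h1 with h1 | h1
    · simpa using h1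
    · exact absurd h1 hxj
  rw [ha0, zero_smul, add_zero]

omit hψ

variable (R S) in
/-- the joint representation -/
def pr : Matrix.symplecticGroup (Fin n) F →* Module.End ℂ (V × W) where
  toFun g := LinearMap.prodMap (R g) (S g)
  map_one' := by rw [map_one, map_one]; rfl
  map_mul' g h := by rw [map_mul, map_mul]; rfl

@[simp] theorem pr_fst (g : Matrix.symplecticGroup (Fin n) F) (p : V × W) :
    (pr R S g p).1 = R g p.1 := rfl

@[simp] theorem pr_snd (g : Matrix.symplecticGroup (Fin n) F) (p : V × W) :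
    (pr R S g p).2 = S g p.2 := rfl

theorem wt_pr {x : Fin n → F} {p : V × W} (h : Wt ψ R x p.1) (h' : Wt ψ S x p.2) :
    Wt ψ (pr R S) x p := fun M => Prod.ext (h M) (h' M)

variable (R S) in
/-- the slice through a pair of weight vectors -/
def slice (i j : Fin n) (hij : i ≠ j) (p : V × W) : Submodule ℂ (V × W) :=
  Submodule.span ℂ (Set.range fun a : F => pr R S (lev (tv i j hij a)) p)

variable {i j : Fin n} {hij : i ≠ j} {x : Fin n → F} {v : V} {v' : W}

theorem slice_gen_wt (hv : Wt ψ R x v) (hv' : Wt ψ S x v') (a : F) :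
    Wt ψ (pr R S) (x + (a * x j) • Pi.single i 1) (pr R S (lev (tv i j hij a)) (v, v')) := by
  rw [← tv_mulVec i j hij a x]
  exact (wt_pr (p := (v, v')) hv hv').lev _

theorem mem_slice_self (p : V × W) : p ∈ slice R S i j hij p :=
  Submodule.subset_span ⟨0, by
    show pr R S (lev (tv i j hij 0)) p = p
    rw [tv_zero, map_one, map_one]; rfl⟩

/-- stabilisation by a submodule generated by images -/
theorem map_mem {P : V × W} {U : Submodule ℂ (V × W)} (g : Matrix.symplecticGroup (Fin n) F)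
    (h : ∀ a : F, pr R S g (pr R S (lev (tv i j hij a)) P) ∈ U) {m : V × W}
    (hm : m ∈ slice R S i j hij P) : pr R S g m ∈ U := by
  induction hm using Submodule.span_induction with
  | mem y hy => obtain ⟨a, rfl⟩ := hy; exact h a
  | zero => rw [map_zero]; exact U.zero_mem
  | add y z _ _ hy hz => rw [map_add]; exact U.add_mem hy hz
  | smul c y _ hy => rw [map_smul]; exact U.smul_mem c hy

theorem tv_mem (P : V × W) (b : F) {m : V × W} (hm : m ∈ slice R S i j hij P) :
    pr R S (lev (tv i j hij b)) m ∈ slice R S i j hij P := by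
  refine map_mem _ (fun a => ?_) hm
  rw [← apply_mul, ← map_mul, tv_mul]
  exact Submodule.subset_span ⟨_, rfl⟩

theorem siegel_mem (hv : Wt ψ R x v) (hv' : Wt ψ S x v') (M : Matrix (Fin n) (Fin n) F) {m : V × W}
    (hm : m ∈ slice R S i j hij (v, v')) :
    pr R S (siegel M) m ∈ slice R S i j hij (v, v') := by
  refine map_mem _ (fun a => ?_) hm
  rw [slice_gen_wt hv hv' a M]
  exact Submodule.smul_mem _ _ (Submodule.subset_span ⟨a, rfl⟩)

theorem off_eigen (hv : Wt ψ R x v) (hv' : Wt ψ S x v') (M : Matrix (Fin n) (Fin n) F)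
    (hr : ∀ k, M i k = 0) (hc : ∀ k, M k i = 0) {m : V × W}
    (hm : m ∈ slice R S i j hij (v, v')) : pr R S (siegel M) m = chi ψ x M • m := by
  induction hm using Submodule.span_induction with
  | mem y hy =>
    obtain ⟨a, rfl⟩ := hy
    rw [slice_gen_wt hv hv' a M]
    congr 1
    simp only [chi]
    congr 1
    have e1 : M *ᵥ Pi.single i 1 = 0 := by
      rw [Matrix.mulVec_single_one]; funext k; exact hc k
    have e2 : ∀ u, Pi.single i (1 : F) ⬝ᵥ M *ᵥ u = 0 := fun u => by
      rw [single_dotProduct, Matrix.mulVec, dotProduct]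
      simp [hr]
    rw [Matrix.mulVec_add, Matrix.mulVec_smul, e1, smul_zero, add_zero, add_dotProduct,
      smul_dotProduct, e2, smul_zero, add_zero]
  | zero => rw [map_zero, smul_zero]
  | add y z _ _ hy hz => rw [map_add, hy, hz, smul_add]
  | smul c y _ hy => rw [map_smul, hy, smul_comm]

section

variable (h2 : (2 : F) ≠ 0) (hxj : x j ≠ 0) (hv : Wt ψ R x v) (hv' : Wt ψ S x v') (h0 : v' ≠ 0)
include hψ h2 hxj hv hv' h0

theorem slice_weight_inj (hij : i ≠ j) : Function.Injective fun a : F =>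
    chi ψ (x + (a * x j) • Pi.single i 1) := by
  intro a b h
  rcases chi_inj hψ (fun M => congrFun h M) with e | e
  · have := congrFun e i
    simp at this
    rcases this with e' | e'
    · exact e'.symm
    · exact absurd e' hxj
  · have := congrFun e j
    simp [hij.symm] at this
    refine absurd ?_ hxj
    have : (2 : F) * x j = 0 := by linear_combination this
    exact (mul_eq_zero.1 this).resolve_left h2

theorem coeff_unique (f : F → ℂ)
    (hf : ∑ a, f a • S (lev (tv i j hij a)) v' = 0) (a : F) : f a = 0 := by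
  have hli := linearIndependent_weightVec (ι := F) (fun M => S (siegel M))
    (fun a : F => chi ψ (x + (a * x j) • Pi.single i 1)) (slice_weight_inj hψ h2 hxj hv hv' h0 hij)
    (fun a => S (lev (tv i j hij a)) v')
    (fun a => ⟨fun h => h0 (by rw [← apply_inv_apply S (lev (tv i j hij a)) v', h, map_zero]),
      fun M => congrArg Prod.snd (slice_gen_wt hv hv' a M)⟩)
  exact Fintype.linearIndependent_iff.1 hli f hf a

theorem slice_inj {m : V × W} (hm : m ∈ slice R S i j hij (v, v')) (h : m.2 = 0) : m = 0 := by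
  obtain ⟨f, rfl⟩ := (Submodule.mem_span_range_iff_exists_fun ℂ).1 hm
  rw [Prod.snd_sum] at h
  refine Finset.sum_eq_zero fun a _ => ?_
  rw [coeff_unique hψ h2 hxj hv hv' h0 f h a, zero_smul]

theorem slice_surj (hS : RankOne ψ S) (h1 : OneDim ψ S) (w : W)
    (hw : ∀ M : Matrix (Fin n) (Fin n) F, (∀ k, M i k = 0) → (∀ k, M k i = 0) →
      S (siegel M) w = chi ψ x M • w) : ∃ m ∈ slice R S i j hij (v, v'), m.2 = w := by
  have := mem_span_slice hψ hS hij x hxj w hw
  clear hw
  induction this using Submodule.span_induction with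
  | mem y hy =>
    obtain ⟨a, ha⟩ := hy
    have hg : Wt ψ S (x + a • Pi.single i 1) (S (lev (tv i j hij (a / x j))) v') := by
      have := hv'.lev (tv i j hij (a / x j))
      rwa [tv_mulVec, div_mul_cancel₀ _ hxj] at this
    obtain ⟨c, hc⟩ := h1 _ (fun h => hxj (by simpa [hij.symm] using congrFun h j)) _ _ hg ha
      (fun h => h0 (by rw [← apply_inv_apply S (lev (tv i j hij (a / x j))) v', h, map_zero]))
    exact ⟨c • pr R S (lev (tv i j hij (a / x j))) (v, v'),
      Submodule.smul_mem _ _ (Submodule.subset_span ⟨_, rfl⟩), hc.symm⟩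
  | zero => exact ⟨0, Submodule.zero_mem _, rfl⟩
  | add y z _ _ hy hz =>
    obtain ⟨m, hm, hm'⟩ := hy
    obtain ⟨p, hp, hp'⟩ := hz
    exact ⟨m + p, Submodule.add_mem _ hm hp, by rw [Prod.snd_add, hm', hp']⟩
  | smul c y _ hy =>
    obtain ⟨m, hm, hm'⟩ := hy
    exact ⟨c • m, Submodule.smul_mem _ c hm, by rw [Prod.smul_snd, hm']⟩

/-- an element normalising the Heisenberg operators carries slices to slices -/
theorem slice_map (hR : RankOne ψ R) (hS : RankOne ψ S) (h1 : OneDim ψ S)
    (h : Matrix.symplecticGroup (Fin n) F)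
    (hoff : ∀ M : Matrix (Fin n) (Fin n) F, (∀ k, M i k = 0) → (∀ k, M k i = 0) →
      siegel M * h = h * siegel M)
    (hX : ∀ b : F, ∃ c : F, cr i j b * h = h * lev (tv i j hij c))
    (hT : ∀ b : F, ∃ c : F, lev (tv i j hij b) * h = h * cr i j c) :
    ∃ v1, Wt ψ R x v1 ∧ ∀ m, m ∈ slice R S i j hij (v1, v') ↔
      pr R S h⁻¹ m ∈ slice R S i j hij (v, v') := by
  set J := slice R S i j hij (v, v')
  have hoff' : ∀ M : Matrix (Fin n) (Fin n) F, (∀ k, M i k = 0) → (∀ k, M k i = 0) →
      siegel M * h⁻¹ = h⁻¹ * siegel M := fun M hr hc => by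
    rw [eq_inv_mul_iff_mul_eq, ← mul_assoc, ← hoff M hr hc, mul_inv_cancel_right]
  obtain ⟨m0, hm0, hm0'⟩ := slice_surj hψ h2 hxj hv hv' h0 hS h1 (S h⁻¹ v') (fun M hr hc => by
    rw [← apply_mul, hoff' M hr hc, apply_mul, hv' M, map_smul])
  let v1 := (pr R S h m0).1
  have hp : pr R S h m0 = (v1, v') := Prod.ext rfl (by
    rw [pr_snd, hm0', apply_apply_inv])
  have hz : ∀ m, pr R S h⁻¹ m ∈ J → m.2 = 0 → m = 0 := fun m hm h' => by
    have := slice_inj hψ h2 hxj hv hv' h0 hm (by rw [pr_snd, h', map_zero])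
    rw [← apply_apply_inv (pr R S) h m, this, map_zero]
  have hgenT : ∀ b m, pr R S h⁻¹ m ∈ J → pr R S h⁻¹ (pr R S (lev (tv i j hij b)) m) ∈ J := by
    intro b m hm
    obtain ⟨c, hc⟩ := hT b
    rw [show pr R S h⁻¹ (pr R S (lev (tv i j hij b)) m) =
      pr R S (cr i j c) (pr R S h⁻¹ m) from by
      rw [← apply_mul, ← apply_mul]
      congr 2
      rw [inv_mul_eq_iff_eq_mul, ← mul_assoc, ← hc, mul_inv_cancel_right]]
    exact siegel_mem hv hv' _ hm
  have hgenX : ∀ b m, pr R S h⁻¹ m ∈ J → pr R S h⁻¹ (pr R S (cr i j b) m) ∈ J := by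
    intro b m hm
    obtain ⟨c, hc⟩ := hX b
    rw [show pr R S h⁻¹ (pr R S (cr i j b) m) =
      pr R S (lev (tv i j hij c)) (pr R S h⁻¹ m) from by
      rw [← apply_mul, ← apply_mul]
      congr 2
      rw [inv_mul_eq_iff_eq_mul, ← mul_assoc, ← hc, mul_inv_cancel_right]]
    exact tv_mem _ _ hm
  have hpJ : pr R S h⁻¹ (v1, v') ∈ J := by rw [← hp, apply_inv_apply]; exact hm0
  have hv1 : Wt ψ R x v1 := by
    refine wt_of_slice hψ h2 hR hij x hxj v1 (fun M hr hc => ?_) fun b => ?_
    · have e : pr R S (siegel M) (v1, v') = chi ψ x M • (v1, v') := by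
        rw [← hp, ← apply_mul, hoff M hr hc, apply_mul, off_eigen hv hv' M hr hc hm0, map_smul]
      exact congrArg Prod.fst e
    · have e : pr R S (cr i j b) (v1, v') - chi ψ x (b • single i j 1) • (v1, v') = 0 := by
        refine hz _ ?_ ?_
        · rw [map_sub, map_smul]
          exact Submodule.sub_mem _ (hgenX b _ hpJ) (Submodule.smul_mem _ _ hpJ)
        · rw [Prod.snd_sub, Prod.smul_snd, pr_snd, sub_eq_zero]
          exact hv' _
      exact congrArg Prod.fst (sub_eq_zero.1 e)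
  refine ⟨v1, hv1, fun m => ⟨fun hm => map_mem _ (fun a => hgenT a _ hpJ) hm, fun hm => ?_⟩⟩
  obtain ⟨p, hp1, hp2⟩ := slice_surj (R := R) (v := v1) hψ h2 hxj hv1 hv' h0 hS h1 m.2
    (fun M hr hc => by
      have : pr R S (siegel M) m = chi ψ x M • m := by
        rw [← apply_apply_inv (pr R S) h m, ← apply_mul, hoff M hr hc, apply_mul,
          off_eigen hv hv' M hr hc hm, map_smul]
      exact congrArg Prod.snd this)
  have : m - p = 0 := hz _ (by
    rw [map_sub]
    exact Submodule.sub_mem _ hm (map_mem _ (fun a => hgenT a _ hpJ) hp1))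
    (by rw [Prod.snd_sub, hp2, sub_self])
  rw [sub_eq_zero.1 this]
  exact hp1

omit h2 hxj hv hv' h0 hψ in
theorem wi_normal (hij : i ≠ j) :
    (∀ b : F, ∃ c : F, cr i j b * wi i = wi i * lev (tv i j hij c)) ∧
    (∀ b : F, ∃ c : F, lev (tv i j hij b) * wi i = wi i * cr i j c) :=
  ⟨fun b => ⟨b, (wi_tv i j hij b).symm⟩, fun b => ⟨-b, by rw [wi_cr i j hij, neg_neg]⟩⟩

/-- elements preserving a slice -/
def sliceStab (p : V × W) : Subgroup (Matrix.symplecticGroup (Fin n) F) where
  carrier := {g | ∀ m, m ∈ slice R S i j hij p ↔ pr R S g m ∈ slice R S i j hij p}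
  one_mem' := fun m => by rw [map_one]; exact Iff.rfl
  mul_mem' := fun {a b} ha hb m => by rw [apply_mul]; exact (hb m).trans (ha _)
  inv_mem' := fun {a} ha m => by rw [ha (pr R S a⁻¹ m), apply_apply_inv]

variable (hR : RankOne ψ R) (hS : RankOne ψ S) (h1 : OneDim ψ S)
include hR hS h1

omit hR hS h1 h2 hxj h0 hψ in
theorem siegel_sliceStab (M : Matrix (Fin n) (Fin n) F) :
    siegel M ∈ sliceStab (R := R) (S := S) (hij := hij) (v, v') := fun m => by
  refine ⟨siegel_mem hv hv' M, fun h => ?_⟩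
  have := siegel_mem hv hv' (-M) h
  rwa [← apply_mul, ← siegel_add, neg_add_cancel, show siegel (0 : Matrix (Fin n) (Fin n) F) = 1
    from Subtype.ext (by simp [siegel, fromBlocks_one]), map_one] at this

theorem wi_sliceStab : wi i ∈ sliceStab (R := R) (S := S) (hij := hij) (v, v') := by
  obtain ⟨hX, hT⟩ := wi_normal (F := F) hij
  -- the inverse of `wi i`
  obtain ⟨v1, hv1, hiff⟩ := slice_map hψ h2 hxj hv hv' h0 hR hS h1 (wi i)⁻¹
    (fun M hr hc => by
      rw [eq_inv_mul_iff_mul_eq, ← mul_assoc, ← siegel_wi_comm i M hr hc, mul_inv_cancel_right])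
    (fun b => ⟨-b, by
      rw [eq_inv_mul_iff_mul_eq, ← mul_assoc, wi_cr i j hij, mul_inv_cancel_right]⟩)
    (fun b => ⟨b, by
      rw [eq_inv_mul_iff_mul_eq, ← mul_assoc, wi_tv i j hij, mul_inv_cancel_right]⟩)
  have hu : ∀ t : F, zi i t ∈ sliceStab (R := R) (S := S) (hij := hij) (v, v') :=
    fun t => siegel_sliceStab hv hv' _
  have hconj : wi i * zi i (1 : F) * (wi i)⁻¹ ∈ sliceStab (R := R) (S := S) (hij := hij) (v, v') := by
    intro m
    have e : ∀ q, pr R S (wi i) q ∈ slice R S i j hij (v, v') ↔ q ∈ slice R S i j hij (v1, v') :=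
      fun q => by rw [hiff q, inv_inv]
    rw [apply_mul, apply_mul, e]
    refine Iff.trans ?_ (siegel_sliceStab (R := R) (v := v1) hv1 hv' _ _)
    rw [← e, apply_apply_inv]
  have hb := wi_braid h2 (i := i)
  have e : wi i = zi i (1 : F) * (wi i * zi i (1 : F) * (wi i)⁻¹) * zi i (1 : F) := by
    have hz : zi i (-1 : F) = (zi i (1 : F))⁻¹ := eq_inv_of_mul_eq_one_left (by
      rw [zi, zi, ← siegel_add, ← add_smul, neg_div, neg_add_cancel, zero_smul]
      exact Subtype.ext (by simp [siegel, fromBlocks_one]))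
    rw [hz] at hb
    calc wi i = (wi i * (zi i (1 : F))⁻¹ * wi i) * ((wi i)⁻¹ * zi i (1 : F)) := by group
      _ = _ := by rw [hb]; group
  rw [e]
  exact mul_mem (mul_mem (hu 1) hconj) (hu 1)

theorem dg_sliceStab (t : Fˣ) :
    lev (dg i t) ∈ sliceStab (R := R) (S := S) (hij := hij) (v, v') := by
  have hw := wi_sliceStab (hij := hij) hψ h2 hxj hv hv' h0 hR hS h1
  have hu : ∀ t : F, zi i t ∈ sliceStab (R := R) (S := S) (hij := hij) (v, v') :=
    fun t => siegel_sliceStab hv hv' _
  have h := mul_mem (mul_mem (hu ((t⁻¹ : Fˣ) : F)) hw) (hu (t : F))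
  rw [← wi_torus h2 i t] at h
  exact (Subgroup.mul_mem_cancel_right _ hw).1
    ((Subgroup.mul_mem_cancel_right _ (mul_mem (hu _) hw)).1 h)

omit hR hS h1 in
theorem scalar_of_sliceStab {g : Matrix.symplecticGroup (Fin n) F}
    (hg : g ∈ sliceStab (R := R) (S := S) (hij := hij) (v, v')) {c : ℂ} (hc : S g v' = c • v') :
    R g v = c • v := by
  have := slice_inj hψ h2 hxj hv hv' h0 (m := pr R S g (v, v') - c • (v, v'))
    (Submodule.sub_mem _ ((hg _).1 (mem_slice_self _)) (Submodule.smul_mem _ _ (mem_slice_self _)))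
    (by rw [Prod.snd_sub, Prod.smul_snd, pr_snd, hc, sub_self])
  exact congrArg Prod.fst (sub_eq_zero.1 this)

/-- the Weyl element moves a weight vector to a vector with full support on its slice -/
theorem wi_full : ∃ f : F → ℂ, (∀ a, f a ≠ 0) ∧
    pr R S (wi i) (v, v') = ∑ a, f a • pr R S (lev (tv i j hij a)) (v, v') := by
  classical
  have hw := wi_sliceStab (hij := hij) hψ h2 hxj hv hv' h0 hR hS h1
  obtain ⟨f, hf⟩ :=
    (Submodule.mem_span_range_iff_exists_fun ℂ).1 ((hw (v, v')).1 (mem_slice_self _))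
  refine ⟨f, fun b hb => ?_, hf.symm⟩
  obtain ⟨g, hg⟩ := (Submodule.mem_span_range_iff_exists_fun ℂ).1
    (((sliceStab (R := R) (S := S) (hij := hij) (v, v')).inv_mem hw
      (pr R S (lev (tv i j hij b)) (v, v'))).1 (Submodule.subset_span ⟨b, rfl⟩))
  have e := congrArg (fun m => pr R S (wi i) m) hg
  simp only [map_sum, map_smul, apply_apply_inv] at e
  simp only [← apply_mul, wi_tv i j hij] at e
  simp only [apply_mul, ← hf, map_sum, map_smul] at e
  have hsc : ∀ a c, pr R S (cr i j a) (pr R S (lev (tv i j hij c)) (v, v')) =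
      chi ψ (x + (c * x j) • Pi.single i 1) (a • single i j 1) •
        pr R S (lev (tv i j hij c)) (v, v') := fun a c => slice_gen_wt hv hv' c _
  simp only [hsc, smul_smul, Finset.smul_sum] at e
  rw [Finset.sum_comm] at e
  simp only [← Finset.sum_smul] at e
  have e2 := congrArg Prod.snd e
  rw [Prod.snd_sum] at e2
  simp only [Prod.smul_snd, pr_snd] at e2
  have := coeff_unique (hij := hij) hψ h2 hxj hv hv' h0 (fun c =>
    (∑ a, g a * (f c * chi ψ (x + (c * x j) • Pi.single i 1) (a • single i j 1))) -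
      if c = b then 1 else 0) (by
    simp only [sub_smul, Finset.sum_sub_distrib, ite_smul, one_smul, zero_smul, Finset.sum_ite_eq',
      Finset.mem_univ, if_true]
    rw [e2, sub_self]) b
  simp [hb] at this

end

end Cfsg.Agent.FGS75.Weil
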